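import Mathlib
import Cfsg.Agent.Lib.PGroup.Frattini
import Cfsg.Agent.Lib.Core.Coprime
import Cfsg.Agent.Lib.Core.PCore

/-!
# Invariant TI families of non-elementary subgroups of a 2-group commute;
elements acting trivially on `O_p(X)/Φ(O_p(X))`
-/

set_option autoImplicit false

namespace H79.TI

open Subgroup
open scoped commutatorElement

variable {G : Type*} [Group G]

/-- `s R s⁻¹` -/
abbrev cj (s : G) (R : Subgroup G) : Subgroup G := R.map (MulAut.conj s).toMonoidHom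

theorem mem_cj {s : G} {R : Subgroup G} {x : G} : x ∈ cj s R ↔ s⁻¹ * x * s ∈ R := by
  constructor
  · rintro ⟨y, hy, rfl⟩
    simpa [mul_assoc] using hy
  · intro h
    exact ⟨_, h, by simp [mul_assoc]⟩

theorem conj_mem_cj {s : G} {R : Subgroup G} {x : G} (h : x ∈ R) : s * x * s⁻¹ ∈ cj s R :=
  ⟨x, h, rfl⟩

theorem cj_one (R : Subgroup G) : cj 1 R = R := by ext x; rw [mem_cj]; simp

theorem cj_cj (s t : G) (R : Subgroup G) : cj s (cj t R) = cj (s * t) R := by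
  ext x; simp only [mem_cj, mul_inv_rev, mul_assoc]

theorem cj_eq_iff {s : G} {R : Subgroup G} : cj s R = R ↔ s ∈ normalizer (R : Set G) := by
  rw [mem_normalizer_iff'']
  constructor
  · intro h x
    rw [← mem_cj, h]
  · intro h
    ext x
    rw [mem_cj]
    exact (h x).symm

theorem card_cj (s : G) (R : Subgroup G) : Nat.card (cj s R) = Nat.card R :=
  card_map_of_injective (MulAut.conj s).injective

theorem exists_normal_lt [Finite G] {p : ℕ} [Fact p.Prime] {R P : Subgroup G} (hP : IsPGroup p P)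
    (h : R < P) : ∃ M : Subgroup G, R ≤ M ∧ M < P ∧ ∀ s ∈ P, ∀ x ∈ M, s * x * s⁻¹ ∈ M := by
  have hne : R.subgroupOf P ≠ ⊤ := fun e => h.not_ge (subgroupOf_eq_top.1 e)
  obtain ⟨M, h1, h2, -, h3⟩ := H5.exists_le_normal_index_eq hP hne
  refine ⟨M.map P.subtype, fun x hx => ⟨⟨x, h.le hx⟩, h1 hx, rfl⟩, ?_, ?_⟩
  · refine lt_of_le_of_ne (map_subtype_le _) fun e => h3.1 ?_
    rw [eq_top_iff]
    intro x _
    have : (x : G) ∈ M.map P.subtype := e.symm ▸ x.2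
    obtain ⟨y, hy, hyx⟩ := this
    rwa [show y = x from Subtype.ext hyx] at hy
  · rintro s hs _ ⟨x, hx, rfl⟩
    exact ⟨_, h2.conj_mem x hx ⟨s, hs⟩, rfl⟩

/-- `R` normalizes `T`, distinct `T`-conjugates of `R` commute with and meet `R` trivially:
then `T` normalizes `R`. -/
theorem norm_of_norm [Finite G] {R T : Subgroup G} (hc : Nat.card R = Nat.card T)
    (hn : R ≤ normalizer (T : Set G))
    (hR : ∀ t ∈ T, cj t R ≠ R → (cj t R ⊓ R = ⊥ ∧ ∀ a ∈ R, ∀ b ∈ cj t R, Commute a b)) :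
    T ≤ normalizer (R : Set G) := by
  intro t ht
  by_contra hne
  obtain ⟨hi, hcm⟩ := hR t ht (fun e => hne (cj_eq_iff.1 e))
  let φ : R → T := fun r => ⟨(r : G)⁻¹ * t * r * t⁻¹, mul_mem
    (by simpa using (mem_normalizer_iff.1 (inv_mem (hn r.2)) t).1 ht) (inv_mem ht)⟩
  have hinj : Function.Injective φ := by
    intro r r' e
    have e1 : (r : G)⁻¹ * t * r * t⁻¹ = (r' : G)⁻¹ * t * r' * t⁻¹ := congrArg Subtype.val e
    have h1 : (r' : G) * (r : G)⁻¹ ∈ cj t R ⊓ R := by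
      refine mem_inf.2 ⟨?_, mul_mem r'.2 (inv_mem r.2)⟩
      have : (r' : G) * (r : G)⁻¹ = t * (r' * (r : G)⁻¹) * t⁻¹ := by
        calc (r' : G) * (r : G)⁻¹ = r' * ((r : G)⁻¹ * t * r * t⁻¹) * (t * (r : G)⁻¹ * t⁻¹) := by group
          _ = _ := by rw [e1]; group
      rw [this]
      exact conj_mem_cj (mul_mem r'.2 (inv_mem r.2))
    rw [hi, mem_bot, mul_inv_eq_one] at h1
    exact Subtype.ext h1.symm
  have hsurj := (Finite.injective_iff_surjective_of_equiv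
    ((Finite.equivFinOfCardEq hc).trans (Finite.equivFin T).symm)).1 hinj
  obtain ⟨r, hr⟩ := hsurj ⟨t, ht⟩
  have e1 : (r : G)⁻¹ * (t * r * t⁻¹) = t := by
    have := congrArg Subtype.val hr
    simpa [φ, mul_assoc] using this
  apply hne
  rw [← e1]
  refine mul_mem (inv_mem (le_normalizer r.2)) (centralizer_le_normalizer _ ?_)
  intro a ha
  exact (hcm a ha _ (conj_mem_cj r.2)).eq

theorem sq_eq_one [Finite G] {R T : Subgroup G} {r t : G} (ht2 : ∃ k, t ^ 2 ^ k = 1) (hr : r ∈ R) (ht : t ∈ T)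
    (hrT : r ∉ normalizer (T : Set G))
    (hR : ∀ a ∈ R, ∀ b ∈ cj t R, Commute a b)
    (hT : ∀ s ∈ R, ∀ s' ∈ R, cj s T ≠ cj s' T →
      (cj s T ⊓ cj s' T = ⊥ ∧ ∀ a ∈ cj s T, ∀ b ∈ cj s' T, Commute a b)) : t ^ 2 = 1 := by
  have n1 : cj 1 T ≠ cj r T := fun e => hrT (cj_eq_iff.1 (by rw [← e, cj_one]))
  have n2 : cj 1 T ≠ cj r⁻¹ T := fun e => hrT (by
    have := cj_eq_iff.1 (show cj r⁻¹ T = T by rw [← e, cj_one]); simpa using inv_mem this)
  obtain ⟨i1, c1⟩ := hT 1 (one_mem _) r hr n1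
  have ht1 : t ∈ cj 1 T := by rwa [cj_one]
  set u := r * t * r⁻¹ with hu
  set v := r⁻¹ * t * r⁻¹⁻¹ with hv
  have hum : u ∈ cj r T := conj_mem_cj ht
  have hvm : v ∈ cj r⁻¹ T := conj_mem_cj ht
  have h0 : Commute r (t * r * t⁻¹) := hR r hr _ (conj_mem_cj hr)
  have htu : Commute t u := c1 t ht1 u hum
  have key : t ^ 2 = v * u := by
    have e1 : t * u⁻¹ * t = v := by
      have := h0.eq
      calc t * u⁻¹ * t = r⁻¹ * (r * (t * r * t⁻¹)) * r⁻¹ * t := by rw [hu]; group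
        _ = r⁻¹ * ((t * r * t⁻¹) * r) * r⁻¹ * t := by rw [this]
        _ = v := by rw [hv]; group
    rw [← e1, mul_assoc, mul_assoc, htu.eq, pow_two]; group
  by_cases h3 : cj r⁻¹ T = cj r T
  · have : t ^ 2 ∈ cj 1 T ⊓ cj r T := ⟨pow_mem ht1 2, key ▸ mul_mem (h3 ▸ hvm) hum⟩
    rwa [i1, mem_bot] at this
  · obtain ⟨i3, c3⟩ := hT _ (inv_mem hr) r hr h3
    have hvu : Commute v u := c3 v hvm u hum
    obtain ⟨k, hk⟩ := ht2
    have : ∀ k, t ^ 2 ^ k = 1 → t = 1 := by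
      intro k
      induction k with
      | zero => simp
      | succ k ih =>
        intro h
        apply ih
        rw [pow_succ', pow_mul, key, hvu.mul_pow, mul_eq_one_iff_eq_inv] at h
        have : v ^ 2 ^ k ∈ cj r⁻¹ T ⊓ cj r T :=
          mem_inf.2 ⟨pow_mem hvm _, h ▸ inv_mem (pow_mem hum _)⟩
        rw [i3, mem_bot, hv, conj_pow] at this
        exact conj_eq_one_iff.1 this
    rw [this k hk, one_pow]

theorem commute_of_TI [Finite G] (Δ : Set (Subgroup G)) (hΦ : ∀ R ∈ Δ, ∃ a ∈ R, a ^ 2 ≠ 1)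
    (hord : ∀ R ∈ Δ, ∀ T ∈ Δ, Nat.card R = Nat.card T)
    (hti : ∀ R ∈ Δ, ∀ T ∈ Δ, R = T ∨ R ⊓ T = ⊥) (n : ℕ) :
    ∀ P : Subgroup G, Nat.card P = n → IsPGroup 2 P → (∀ s ∈ P, ∀ R ∈ Δ, R ≤ P → cj s R ∈ Δ) →
      ∀ R ∈ Δ, ∀ T ∈ Δ, R ≤ P → T ≤ P → R ≠ T → ∀ a ∈ R, ∀ b ∈ T, Commute a b := by
  induction n using Nat.strong_induction_on with
  | _ n ih =>
  intro P hPn hP hinv
  have conjs : ∀ R ∈ Δ, ∀ T ∈ Δ, R ≤ P → T ≤ P → R ≠ T → ∀ s ∈ P, ∀ s' ∈ P, cj s R ≠ cj s' R →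
      (cj s R ⊓ cj s' R = ⊥ ∧ ∀ a ∈ cj s R, ∀ b ∈ cj s' R, Commute a b) := by
    intro R hR T hT hRP hTP hne s hs s' hs' h
    have hlt : R < P := lt_of_le_of_ne hRP fun e => hne (eq_of_le_of_card_ge (e ▸ hTP)
      (hord R hR T hT).le).symm
    obtain ⟨M, h1, h2, h3⟩ := exists_normal_lt hP hlt
    have hle : ∀ s ∈ P, cj s R ≤ M := by
      rintro s hs _ ⟨x, hx, rfl⟩
      exact h3 s hs x (h1 hx)
    refine ⟨(hti _ (hinv s hs R hR hRP) _ (hinv s' hs' R hR hRP)).resolve_left h, ?_⟩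
    exact ih _ (hPn ▸ Nat.lt_of_le_of_ne (card_le_of_le h2.le)
      fun e => h2.ne (eq_of_le_of_card_ge h2.le e.ge)) M rfl (hP.to_le h2.le)
      (fun s hs R hR hRM => hinv s (h2.le hs) R hR (hRM.trans h2.le))
      _ (hinv s hs R hR hRP) _ (hinv s' hs' R hR hRP) (hle s hs) (hle s' hs') h
  have nn : ∀ R ∈ Δ, ∀ T ∈ Δ, R ≤ P → T ≤ P → R ≠ T → R ≤ normalizer (T : Set G) →
      T ≤ normalizer (R : Set G) := by
    intro R hR T hT hRP hTP hne hn
    refine norm_of_norm (hord R hR T hT) hn fun t ht h => ?_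
    obtain ⟨h1, h2⟩ := conjs R hR T hT hRP hTP hne t (hTP ht) 1 (one_mem _) (by rwa [cj_one])
    rw [cj_one] at h1 h2
    exact ⟨h1, fun a ha b hb => (h2 b hb a ha).symm⟩
  intro R hR T hT hRP hTP hne
  have hi := (hti R hR T hT).resolve_left hne
  by_cases hn : R ≤ normalizer (T : Set G)
  · have hn' := nn R hR T hT hRP hTP hne hn
    intro a ha b hb
    have : ⁅a, b⁆ ∈ R ⊓ T := by
      constructor
      · have := (mem_normalizer_iff.1 (hn' hb) a⁻¹).1 (inv_mem ha)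
        have h2 := mul_mem ha this
        simpa [commutatorElement_def, mul_assoc] using h2
      · have := (mem_normalizer_iff.1 (hn ha) b).1 hb
        exact T.mul_mem this (T.inv_mem hb)
    rw [hi, mem_bot] at this
    exact commutatorElement_eq_one_iff_commute.1 this
  exfalso
  have hn' : ¬ T ≤ normalizer (R : Set G) := fun h => hn (nn T hT R hR hTP hRP hne.symm h)
  obtain ⟨r, hr, hrT⟩ := SetLike.not_le_iff_exists.1 hn
  obtain ⟨t, ht, htR⟩ := SetLike.not_le_iff_exists.1 hn'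
  have cR := conjs R hR T hT hRP hTP hne
  have cT := conjs T hT R hR hTP hRP hne.symm
  obtain ⟨iR, mR⟩ := cR 1 (one_mem _) t (hTP ht) (fun e => htR (cj_eq_iff.1 (by rw [← e, cj_one])))
  obtain ⟨iT, -⟩ := cT 1 (one_mem _) r (hRP hr) (fun e => hrT (cj_eq_iff.1 (by rw [← e, cj_one])))
  rw [cj_one] at iR mR iT
  have p2 : ∀ x ∈ P, ∃ k, x ^ 2 ^ k = 1 := fun x hx => by
    obtain ⟨k, hk⟩ := hP ⟨x, hx⟩
    exact ⟨k, congrArg Subtype.val hk⟩
  have sq : ∀ x ∈ R, x ∉ normalizer (T : Set G) → x ^ 2 = 1 := by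
    intro x hx hxT
    obtain ⟨-, mT⟩ := cT 1 (one_mem _) x (hRP hx) (fun e => hxT (cj_eq_iff.1 (by rw [← e, cj_one])))
    rw [cj_one] at mT
    exact sq_eq_one (p2 x (hRP hx)) ht hx htR mT fun s hs s' hs' => cR s (hTP hs) s' (hTP hs')
  obtain ⟨a, ha, ha2⟩ := hΦ R hR
  have haT : a ∈ normalizer (T : Set G) := by
    by_contra h
    exact ha2 (sq a ha h)
  obtain ⟨k, hk⟩ := p2 a (hRP ha)
  obtain ⟨j, hj1, hj2⟩ := H5.exists_pow_not_mem_pow_mem (K := ⊥)
    (fun h => ha2 (by rw [mem_bot.1 h, one_pow])) (mem_bot.2 hk)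
  set c := a ^ 2 ^ j with hc
  rw [mem_bot] at hj1 hj2
  have hcR : c ∈ R := pow_mem ha _
  have hcT : c ∈ normalizer (T : Set G) := pow_mem haT _
  have hrc : Commute r c := by
    have h1 := sq r hr hrT
    have h2 := sq (r * c) (mul_mem hr hcR) (fun h => hrT (by simpa using mul_mem h (inv_mem hcT)))
    rw [pow_two] at h1 h2 hj2
    have e1 : r⁻¹ = r := inv_eq_of_mul_eq_one_right h1
    have e2 : c⁻¹ = c := inv_eq_of_mul_eq_one_right hj2
    have e3 : (r * c)⁻¹ = r * c := inv_eq_of_mul_eq_one_right h2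
    rw [mul_inv_rev, e1, e2] at e3
    exact e3.symm
  have hb : c⁻¹ * (t * c * t⁻¹) ∈ T := by
    have := (mem_normalizer_iff.1 (inv_mem hcT) t).1 ht
    have h2 := mul_mem this (inv_mem ht)
    simpa [mul_assoc] using h2
  have hrb : Commute r (c⁻¹ * (t * c * t⁻¹)) :=
    hrc.inv_right.mul_right (mR r hr _ (conj_mem_cj hcR))
  have h1 : c⁻¹ * (t * c * t⁻¹) ∈ T ⊓ cj r T := by
    refine ⟨hb, ?_⟩
    have := conj_mem_cj (s := r) hb
    rwa [hrb.eq, mul_inv_cancel_right] at this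
  rw [iT, mem_bot, inv_mul_eq_one] at h1
  have h2 : c ∈ R ⊓ cj t R := ⟨hcR, h1 ▸ conj_mem_cj hcR⟩
  rw [iR, mem_bot] at h2
  exact hj1 h2

/-- `Q ⊴ H` a `p`-group containing its centralizer and every normal `p`-subgroup of `H`:
an element of `H` trivial on `Q/Φ(Q)` lies in `Q`. -/
theorem mem_of_frattini [Finite G] {p : ℕ} [hp : Fact p.Prime]
    (hC : centralizer (Cfsg.pCore p G : Set G) ≤ Cfsg.pCore p G) {g : G}
    (hg : ∀ q ∈ Cfsg.pCore p G, ⁅g, q⁆ ∈ (frattini (Cfsg.pCore p G)).map (Cfsg.pCore p G).subtype) :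
    g ∈ Cfsg.pCore p G := by
  set Q := Cfsg.pCore p G with hQ
  have hQp : IsPGroup p Q := H1.isPGroup_pCore
  haveI hQn : Q.Normal := inferInstance
  set Φ := (frattini Q).map Q.subtype with hΦ
  haveI hΦn : Φ.Normal := ConjAct.normal_of_characteristic_of_normal
  have hKn : (H2.relCentralizer Q Φ).Normal := ⟨fun x hx s => by
    rw [H2.mem_relCentralizer] at hx ⊢
    refine ⟨le_normalizer_of_normal (mem_top _), fun z hz => ?_⟩
    have := hΦn.conj_mem _ (hx.2 (s⁻¹ * z * s) (by simpa using hQn.conj_mem z hz s⁻¹)) s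
    convert this using 1
    simp only [commutatorElement_def]; group⟩
  refine H1.le_pCore (N := H2.relCentralizer Q Φ) ?_
    (H2.mem_relCentralizer.2 ⟨le_normalizer_of_normal (mem_top _), hg⟩)
  rintro ⟨x, hx⟩
  obtain ⟨a, m, hm, e⟩ := Nat.exists_eq_pow_mul_and_not_dvd (orderOf_pos x).ne' p hp.out.ne_one
  refine ⟨a, Subtype.ext ?_⟩
  have hy : x ^ p ^ a ∈ H2.relCentralizer Q Φ := pow_mem hx _
  have ho : orderOf (x ^ p ^ a) = m := by
    rw [orderOf_pow_of_dvd (pow_pos hp.out.pos a).ne' (e ▸ dvd_mul_right _ _), e,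
      Nat.mul_div_cancel_left _ (pow_pos hp.out.pos a)]
  have hcop : (Nat.card (zpowers (x ^ p ^ a))).Coprime p := by
    rw [Nat.card_zpowers, ho]; exact ((Nat.Prime.coprime_iff_not_dvd hp.out).2 hm).symm
  have h1 := H2.le_centralizer_of_commutator_le_frattini (A := zpowers (x ^ p ^ a)) (K := Q)
    (le_normalizer_of_normal.trans' le_top) (by
      obtain ⟨k, hk⟩ := (hQp.to_subgroup (frattini Q)).exists_card_eq
      rw [hk]; exact hcop.pow_right k) (by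
      rw [commutator_comm]
      exact (H2.le_relCentralizer_iff.1 (zpowers_le.2 hy)).2)
  have h2 : x ^ p ^ a ∈ Q := hC (h1 (mem_zpowers _))
  obtain ⟨k, hk⟩ := hQp ⟨_, h2⟩
  have h3 : orderOf (x ^ p ^ a) ∣ p ^ k := orderOf_dvd_of_pow_eq_one (congrArg Subtype.val hk)
  rw [Nat.card_zpowers] at hcop
  have := (hcop.pow_right k).eq_one_of_dvd h3
  simpa using this

end H79.TI
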