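import Mathlib
import Cfsg.Agent.Base
import Cfsg.Agent.Lib.TE.Basic
import Cfsg.Agent.Lib.Push.NatApi
import Cfsg.Agent.Lib.LocEven.CharP

/-!
# Two natural `SL₂(q)`-blocks with a common Sylow subgroup, I: coordinates
-/

set_option autoImplicit false
set_option linter.unusedSectionVars false

namespace H23.L3

open Subgroup Cfsg H69 H55.Two Matrix
open H24 (upT loT)
open scoped commutatorElement MatrixGroups

variable {G : Type*} [Group G] {F : Type*} [Field F]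

/-- `A` is a natural module for `L / A ≅ SL₂(F)`. -/
structure N2 (F : Type*) [Field F] (L A : Subgroup G) (ρ : G → SL(2, F)) (ψ : G → Fin 2 → F) :
    Prop where
  le : A ≤ L
  nrm : L ≤ 𝐍(A)
  ρ_mul : ∀ x ∈ L, ∀ y ∈ L, ρ (x * y) = ρ x * ρ y
  ψ_mul : ∀ u ∈ A, ∀ v ∈ A, ψ (u * v) = ψ u + ψ v
  ρ_surj : ∀ m, ∃ x ∈ L, ρ x = m
  ψ_surj : ∀ s, ∃ v ∈ A, ψ v = s
  ψ_ker : ∀ v ∈ A, ψ v = 0 → v = 1
  ρ_ker : ∀ x ∈ L, ρ x = 1 ↔ x ∈ A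
  equiv : ∀ x ∈ L, ∀ v ∈ A, ψ (x * v * x⁻¹) = (ρ x : Matrix (Fin 2) (Fin 2) F) *ᵥ ψ v

theorem exists_N2 (L : Subgroup G) (φ : L ⧸ pCore 2 L ≃* SL(2, F))
    (ψ : Additive (pCore 2 L) ≃+ (Fin 2 → F))
    (h : ∀ (g : L) (v : pCore 2 L),
      ψ (Additive.ofMul ⟨g * v * g⁻¹, Subgroup.Normal.conj_mem inferInstance (v : L) v.2 g⟩)
        = ((φ (QuotientGroup.mk g) : SL(2, F)) : Matrix (Fin 2) (Fin 2) F) *ᵥ ψ (Additive.ofMul v)) :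
    ∃ ρ ψ, N2 F L (pCoreOf 2 L) ρ ψ := by
  classical
  have le := H70.pCoreOf_le 2 L
  let ι : ∀ v ∈ pCoreOf 2 L, pCore 2 L := fun v hv => ⟨⟨v, le hv⟩, H70.mem_pCoreOf.1 hv⟩
  refine ⟨fun x => if hx : x ∈ L then φ (QuotientGroup.mk ⟨x, hx⟩) else 1,
    fun v => if hv : v ∈ pCoreOf 2 L then ψ (Additive.ofMul (ι v hv)) else 0, le,
    H70.le_normalizer_pCoreOf 2 L, fun x hx y hy => ?_, fun u hu v hv => ?_, fun m => ?_,
    fun s => ?_, fun v hv e => ?_, fun x hx => ?_, fun x hx v hv => ?_⟩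
  · rw [dif_pos hx, dif_pos hy, dif_pos (mul_mem hx hy), ← map_mul, ← QuotientGroup.mk_mul]; rfl
  · rw [dif_pos hu, dif_pos hv, dif_pos (mul_mem hu hv), ← map_add]; rfl
  · obtain ⟨x, rfl⟩ := φ.surjective m
    obtain ⟨x, rfl⟩ := QuotientGroup.mk_surjective x
    exact ⟨x, x.2, dif_pos x.2⟩
  · obtain ⟨v, rfl⟩ := ψ.surjective s
    have hv : ((Additive.toMul v : pCore 2 L) : G) ∈ pCoreOf 2 L :=
      H70.mem_pCoreOf.2 (Additive.toMul v).2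
    exact ⟨_, hv, dif_pos hv⟩
  · rw [dif_pos hv, map_eq_zero_iff _ ψ.injective] at e
    exact congrArg (fun t : Additive (pCore 2 L) => ((Additive.toMul t : pCore 2 L) : G)) e
  · rw [dif_pos hx, map_eq_one_iff _ φ.injective, QuotientGroup.eq_one_iff]
    exact (H70.mem_pCoreOf (x := ⟨x, hx⟩)).symm
  · rw [dif_pos hx, dif_pos hv,
      dif_pos (conj_mem_of_mem_normalizer (H70.le_normalizer_pCoreOf 2 L hx) hv)]
    exact h ⟨x, hx⟩ (ι v hv)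

/-- The abstract properties of a natural block `L` on `A` with Sylow subgroup `A B`. -/
structure NB (L A B : Subgroup G) : Prop extends TE A B where
  JL : A ⊔ B ≤ L
  LA : L ≤ 𝐍(A)
  stab : ∀ x ∈ L, ∀ z ∈ A ⊓ B, z ≠ 1 → x * z * x⁻¹ = z → x ∈ A ⊔ B
  tr : ∀ a ∈ A, ∀ a' ∈ A, a ≠ 1 → a' ≠ 1 → ∃ l ∈ L, l * a * l⁻¹ = a'
  spl : ∀ l ∈ L, l ∉ 𝐍((A ⊓ B : Subgroup G)) → ∀ a ∈ A, ∃ z ∈ A ⊓ B, a * (l * z * l⁻¹) ∈ B
  gen : ∃ l ∈ L, l ∉ 𝐍((A ⊓ B : Subgroup G)) ∧ L ≤ (A ⊔ B) ⊔ (A ⊔ B) ^ᶜ l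

/-- Coordinates for the commutator map `A / Z × B / Z → Z`. -/
structure Co (F : Type*) [Field F] (A B : Subgroup G) (ψ y c : G → F) : Prop extends TE A B where
  two : (2 : F) = 0
  ψ_mul : ∀ u ∈ A ⊓ B, ∀ v ∈ A ⊓ B, ψ (u * v) = ψ u + ψ v
  ψ_ker : ∀ u ∈ A ⊓ B, ψ u = 0 → u = 1
  ψ_surj : ∀ t, ∃ u ∈ A ⊓ B, ψ u = t
  y_mul : ∀ u ∈ A, ∀ v ∈ A, y (u * v) = y u + y v
  y_ker : ∀ a ∈ A, y a = 0 ↔ a ∈ B
  y_surj : ∀ t, ∃ a ∈ A, y a = t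
  c_mul : ∀ u ∈ B, ∀ v ∈ B, c (u * v) = c u + c v
  c_ker : ∀ b ∈ B, c b = 0 ↔ b ∈ A
  c_surj : ∀ t, ∃ b ∈ B, c b = t
  cm : ∀ a ∈ A, ∀ b ∈ B, ψ ⁅a, b⁆ = y a * c b

theorem comm2 {E : Subgroup G} (h : ∀ e ∈ E, e * e = 1) {a b : G} (ha : a ∈ E) (hb : b ∈ E) :
    a * b = b * a := Gold.ea_cent (Gold.ea_of_sq h) hb a ha

theorem sl_up {m : SL(2, F)} {t : F} (ht : t ≠ 0)
    (h : (m : Matrix (Fin 2) (Fin 2) F) *ᵥ ![t, 0] = ![t, 0]) : m = upT (m 0 1) := by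
  have h0 := congrFun h 0
  have h1 := congrFun h 1
  simp only [mulVec, dotProduct, Fin.sum_univ_two, cons_val_zero, cons_val_one, mul_zero,
    add_zero] at h0 h1
  have e0 : m 0 0 = 1 := mul_right_cancel₀ ht (by rw [one_mul]; exact h0)
  have e1 : m 1 0 = 0 := (mul_eq_zero.1 h1).resolve_right ht
  have hd := m.det_coe
  rw [det_fin_two] at hd
  change m 0 0 * m 1 1 - m 0 1 * m 1 0 = 1 at hd
  rw [e0, e1] at hd
  ext i j
  fin_cases i <;> fin_cases j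
  · simpa using e0
  · simp
  · simpa using e1
  · simpa using hd

namespace N2

variable {L A B : Subgroup G} {ρ : G → SL(2, F)} {ψ : G → Fin 2 → F} (h : N2 F L A ρ ψ)
include h

theorem cj {l : G} (hl : l ∈ L) :
    N2 F L A (fun x => ρ (l * x * l⁻¹)) fun v => ψ (l * v * l⁻¹) := by
  have kL : ∀ x ∈ L, l * x * l⁻¹ ∈ L := fun x hx => mul_mem (mul_mem hl hx) (inv_mem hl)
  have kA : ∀ x ∈ A, l * x * l⁻¹ ∈ A := fun x hx => conj_mem_of_mem_normalizer (h.nrm hl) hx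
  refine ⟨h.le, h.nrm, fun x hx y hy => ?_, fun x hx y hy => ?_, fun m => ?_, fun s => ?_,
    fun v hv e => conj_eq_one_iff.1 (h.ψ_ker _ (kA v hv) e), fun x hx => ?_, fun x hx v hv => ?_⟩
  · rw [← conj_mul, h.ρ_mul _ (kL x hx) _ (kL y hy)]
  · rw [← conj_mul, h.ψ_mul _ (kA x hx) _ (kA y hy)]
  · obtain ⟨x, hx, rfl⟩ := h.ρ_surj m
    exact ⟨l⁻¹ * x * l, mul_mem (mul_mem (inv_mem hl) hx) hl, by simp [mul_assoc]⟩
  · obtain ⟨x, hx, rfl⟩ := h.ψ_surj s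
    exact ⟨l⁻¹ * x * l, conj_mem_of_mem_normalizer' (h.nrm hl) hx, by simp [mul_assoc]⟩
  · rw [h.ρ_ker _ (kL x hx)]
    exact (mem_normalizer_iff.1 (h.nrm hl) x).symm
  · rw [← h.equiv _ (kL x hx) _ (kA v hv)]
    congr 1; group

theorem ψ_one : ψ 1 = 0 := by simpa using h.ψ_mul 1 (one_mem _) 1 (one_mem _)

theorem ψ_inv {v : G} (hv : v ∈ A) : ψ v⁻¹ = -ψ v := by
  rw [eq_neg_iff_add_eq_zero, ← h.ψ_mul _ (inv_mem hv) _ hv, inv_mul_cancel, h.ψ_one]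

theorem ψ_inj {u v : G} (hu : u ∈ A) (hv : v ∈ A) (e : ψ u = ψ v) : u = v := by
  have := h.ψ_ker _ (mul_mem hu (inv_mem hv)) (by
    rw [h.ψ_mul _ hu _ (inv_mem hv), h.ψ_inv hv, e, add_neg_cancel])
  exact mul_inv_eq_one.1 this

theorem sq (h2 : (2 : F) = 0) {a : G} (ha : a ∈ A) : a * a = 1 :=
  h.ψ_ker _ (mul_mem ha ha) (by rw [h.ψ_mul a ha a ha, ← two_smul F, h2, zero_smul])

/-- `ρ` as a homomorphism. -/
def ρH : L →* SL(2, F) := MonoidHom.mk' (fun x => ρ x) fun x y => h.ρ_mul x x.2 y y.2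

theorem ρ_inv {x : G} (hx : x ∈ L) : ρ x⁻¹ = (ρ x)⁻¹ := h.ρH.map_inv ⟨x, hx⟩

theorem tr {a a' : G} (ha : a ∈ A) (ha' : a' ∈ A) (h1 : a ≠ 1) (h1' : a' ≠ 1) :
    ∃ l ∈ L, l * a * l⁻¹ = a' := by
  obtain ⟨m, hm⟩ := H68.Push.exists_sl_mulVec (mt (h.ψ_ker a ha) h1) (mt (h.ψ_ker a' ha') h1')
  obtain ⟨l, hl, rfl⟩ := h.ρ_surj m
  exact ⟨l, hl, h.ψ_inj (conj_mem_of_mem_normalizer (h.nrm hl) ha) ha' (by rw [h.equiv l hl a ha, hm])⟩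

theorem ψ_up {b a : G} (hb : b ∈ L) (ha : a ∈ A) {t : F} (e : ρ b = upT t) :
    ψ ⁅b, a⁆ = ![t * ψ a 1, 0] := by
  rw [commutatorElement_def, h.ψ_mul _ (conj_mem_of_mem_normalizer (h.nrm hb) ha) _ (inv_mem ha),
    h.equiv b hb a ha, e, H68.Push.upT_mulVec, h.ψ_inv ha]
  ext i; fin_cases i <;> simp

theorem nb0 [Finite G] (h2 : (2 : F) = 0) (sqB : ∀ b ∈ B, b * b = 1) (nB : A ≤ 𝐍(B))
    (JL : A ⊔ B ≤ L) (hJ : ∀ x ∈ L, x ∈ A ⊔ B ↔ ρ x = upT (ρ x 0 1)) :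
    NB L A B ∧ Co F A B (fun z => ψ z 0) (fun a => ψ a 1) fun b => ρ b 0 1 := by
  have BL : B ≤ L := le_sup_right.trans JL
  have nA : B ≤ 𝐍(A) := BL.trans h.nrm
  have up : ∀ b ∈ B, ρ b = upT (ρ b 0 1) := fun b hb => (hJ b (BL hb)).1 (mem_sup_right hb)
  have ck : ∀ b ∈ B, ρ b 0 1 = 0 ↔ b ∈ A := fun b hb => by
    rw [← h.ρ_ker b (BL hb)]
    exact ⟨fun e => by rw [up b hb, e, H24.upT_zero], fun e => by rw [e]; rfl⟩
  have cs : ∀ t, ∃ b ∈ B, ρ b 0 1 = t := fun t => by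
    obtain ⟨x, hx, e⟩ := h.ρ_surj (upT t)
    obtain ⟨a, ha, b, hb, rfl⟩ := (mem_sup_of_le_normalizer_left nA).1 ((hJ x hx).2 (by rw [e]; rfl))
    rw [h.ρ_mul a (h.le ha) b (BL hb), (h.ρ_ker a (h.le ha)).2 ha, one_mul] at e
    exact ⟨b, hb, by rw [e]; rfl⟩
  have cm : ∀ a ∈ A, ∀ b ∈ B, ψ ⁅b, a⁆ = ![ρ b 0 1 * ψ a 1, 0] := fun a ha b hb =>
    h.ψ_up (BL hb) ha (up b hb)
  have cA : ∀ a ∈ A, ∀ b ∈ B, ⁅b, a⁆ ∈ A := fun a ha b hb =>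
    mul_mem (conj_mem_of_mem_normalizer (nA hb) ha) (inv_mem ha)
  obtain ⟨b1, hb1, e1⟩ := cs 1
  have yk : ∀ a ∈ A, ψ a 1 = 0 ↔ a ∈ B := fun a ha => ⟨fun e => by
    obtain ⟨a', ha', e'⟩ := h.ψ_surj ![0, ψ a 0]
    rw [← h.ψ_inj (cA a' ha' b1 hb1) ha (by
      rw [cm a' ha' b1 hb1, e1, e']; ext i; fin_cases i <;> simp [e]), commutatorElement_def,
      mul_assoc, mul_assoc, ← mul_assoc a']
    exact mul_mem hb1 (conj_mem_of_mem_normalizer (nB ha') (inv_mem hb1)), fun e => by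
    have := congrFun (cm a ha b1 hb1) 0
    rw [cm_eq_one.2 (comm2 sqB hb1 e), h.ψ_one, e1] at this
    simpa using this.symm⟩
  have ys : ∀ t, ∃ a ∈ A, ψ a 1 = t := fun t => by
    obtain ⟨a, ha, e⟩ := h.ψ_surj ![0, t]
    exact ⟨a, ha, by rw [e]; rfl⟩
  have zs : ∀ t, ∃ u ∈ A ⊓ B, ψ u = ![t, 0] := fun t => by
    obtain ⟨a, ha, e⟩ := h.ψ_surj ![t, 0]
    exact ⟨a, ⟨ha, (yk a ha).1 (by rw [e]; rfl)⟩, e⟩
  have zk : ∀ u ∈ A ⊓ B, ψ u = ![ψ u 0, 0] := fun u hu => by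
    ext i; fin_cases i
    · rfl
    · exact (yk u hu.1).2 hu.2
  have te : TE A B := ⟨fun a => h.sq h2, sqB, nA, nB, fun a ha b hb e => by
    have := congrFun (cm a ha b hb) 0
    rw [cm_eq_one.2 e.symm, h.ψ_one] at this
    exact (mul_eq_zero.1 this.symm).symm.imp (yk a ha).1 (ck b hb).1, fun e => by
    obtain ⟨a, ha, e'⟩ := ys 1
    exact one_ne_zero (e'.symm.trans ((yk a ha).2 (e ha))),
    fun e => one_ne_zero (e1.symm.trans ((ck b1 hb1).2 (e hb1)))⟩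
  have nz : ∀ l ∈ L, l ∈ 𝐍((A ⊓ B : Subgroup G)) ↔ ρ l 1 0 = 0 := fun l hl => by
    have k : ∀ z ∈ A ⊓ B, l * z * l⁻¹ ∈ B ↔ ρ l 1 0 * ψ z 0 = 0 := fun z hz => by
      rw [← yk _ (conj_mem_of_mem_normalizer (h.nrm hl) hz.1), h.equiv l hl z hz.1, zk z hz]
      simp [mulVec, dotProduct, Fin.sum_univ_two]
    refine ⟨fun e => ?_, fun e => mem_normalizer_of_cj_le fun x hx => ?_⟩
    · obtain ⟨z, hz, e'⟩ := zs 1
      simpa [e'] using (k z hz).1 (conj_mem_of_mem_normalizer e hz).2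
    · obtain ⟨z, hz, rfl⟩ := mem_cj'.1 hx
      exact ⟨conj_mem_of_mem_normalizer (h.nrm hl) hz.1, (k z hz).2 (by rw [e, zero_mul])⟩
  refine ⟨⟨te, JL, h.nrm, fun x hx z hz z1 e => (hJ x hx).2 (sl_up (t := ψ z 0) (fun e' => z1
    (h.ψ_ker z hz.1 (by rw [zk z hz, e']; simp))) (by rw [← zk z hz, ← h.equiv x hx z hz.1, e])),
    fun a ha a' ha' => h.tr ha ha', fun l hl hn a ha => ?_, ?_⟩, te, h2,
    fun u hu v hv => by rw [h.ψ_mul u hu.1 v hv.1]; rfl,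
    fun u hu e => h.ψ_ker u hu.1 (by rw [zk u hu, e]; simp), fun t => ?_,
    fun u hu v hv => by rw [h.ψ_mul u hu v hv]; rfl, yk, ys, fun u hu v hv => ?_, ck, cs,
    fun a ha b hb => by rw [← te.cm_symm ha hb, cm a ha b hb, mul_comm]; rfl⟩
  · have h3 := mt (nz l hl).2 hn
    obtain ⟨z, hz, e⟩ := zs (-(ψ a 1 / ρ l 1 0))
    have m := conj_mem_of_mem_normalizer (h.nrm hl) hz.1
    refine ⟨z, hz, (yk _ (mul_mem ha m)).1 ?_⟩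
    rw [h.ψ_mul a ha _ m, h.equiv l hl z hz.1, e]
    simp only [Pi.add_apply, mulVec, dotProduct, Fin.sum_univ_two, cons_val_zero, cons_val_one,
      mul_zero, add_zero]
    change ψ a 1 + ρ l 1 0 * _ = 0
    field_simp; ring
  · obtain ⟨l, hl, e⟩ := h.ρ_surj (upT 1 * loT (-1) * upT 1)
    refine ⟨l, hl, fun e' => by simpa [e, SpecialLinearGroup.coe_mul, mul_apply] using (nz l hl).1 e',
      fun x hx => ?_⟩
    have m : ∀ s, ∃ b ∈ B, ρ b = upT s := fun s => by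
      obtain ⟨b, hb, rfl⟩ := cs s
      exact ⟨b, hb, up b hb⟩
    obtain ⟨x', hx', e'⟩ := (H24.eq_top_of_upT_loT
      (M := (((A ⊔ B) ⊔ (A ⊔ B) ^ᶜ l).subgroupOf L).map h.ρH) (fun s => by
        obtain ⟨b, hb, e⟩ := m s
        exact ⟨⟨b, BL hb⟩, mem_sup_left (mem_sup_right hb), e⟩) fun s => by
        obtain ⟨b, hb, e'⟩ := m (-s)
        refine ⟨⟨l * b * l⁻¹, mul_mem (mul_mem hl (BL hb)) (inv_mem hl)⟩,
          mem_sup_right (cj_mem l (mem_sup_right hb)), ?_⟩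
        change ρ (l * b * l⁻¹) = _
        rw [h.ρ_mul _ (mul_mem hl (BL hb)) _ (inv_mem hl), h.ρ_mul l hl b (BL hb), h.ρ_inv hl,
          mul_inv_eq_iff_eq_mul, e, e']
        ext i j
        fin_cases i <;> fin_cases j <;>
          simp [SpecialLinearGroup.coe_mul, mul_apply]).ge (mem_top (ρ x))
    have := (h.ρ_ker _ (mul_mem hx (inv_mem x'.2))).1 (by
      rw [h.ρ_mul x hx _ (inv_mem x'.2), h.ρ_inv x'.2, ← e']; exact mul_inv_cancel _)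
    simpa using mul_mem (mem_sup_left (mem_sup_left this)) hx'
  · obtain ⟨u, hu, e⟩ := zs t
    exact ⟨u, hu, by rw [e]; rfl⟩
  · rw [h.ρ_mul u (BL hu) v (BL hv), up u hu, up v hv, ← H24.upT_add]; rfl

theorem nb [Finite G] (h2 : (2 : F) = 0) (sqB : ∀ b ∈ B, b * b = 1) (nB : A ≤ 𝐍(B))
    (hS : IsSylowIn 2 (A ⊔ B) L) : NB L A B ∧ ∃ ψ y c, Co F A B ψ y c := by
  haveI : Fact (Nat.Prime 2) := ⟨Nat.prime_two⟩
  obtain ⟨e, he, e1⟩ := h.ψ_surj ![1, 0]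
  have e0 : e ≠ 1 := fun c => by simpa [c, h.ψ_one] using congrFun e1 0
  obtain ⟨⟨v, hv, hc⟩, v1⟩ := ne_bot_iff_exists_ne_one.1 (inf_centralizer_ne_bot
    (hS.isP.to_le le_sup_left) hS.isP (hS.le.trans h.nrm) fun c => e0 (mem_bot.1 (c ▸ he)))
  obtain ⟨l, hl, e2⟩ := h.tr hv he (fun c => v1 (Subtype.ext c)) e0
  have k := h.cj hl
  have up : ∀ x ∈ L, x * v * x⁻¹ = v → ρ (l * x * l⁻¹) = upT (ρ (l * x * l⁻¹) 0 1) :=
    fun x hx c => sl_up one_ne_zero (by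
      have := k.equiv x hx v hv
      rw [c, e2, e1] at this
      exact this.symm)
  have U : L ⊓ centralizer {v} ≤ A ⊔ B := by
    refine (hS.max _ (le_inf hS.le fun x hx => mem_centralizer_singleton_iff.2 (hc x hx))
      inf_le_left (isPGroup_iff_mem.2 fun x hx => ⟨2, ?_⟩)).le
    have := (k.ρ_ker _ (mul_mem hx.1 hx.1)).1 (by
      rw [k.ρ_mul x hx.1 x hx.1, up x hx.1 (by
        rw [mem_centralizer_singleton_iff.1 hx.2, mul_inv_cancel_right]), ← H24.upT_add,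
        ← two_mul, h2, zero_mul, H24.upT_zero])
    rw [← h.sq h2 this]
    simp only [← pow_two, ← pow_mul]
  obtain ⟨n, c⟩ := k.nb0 h2 sqB nB hS.le fun x hx => ⟨fun m => up x hx (by
    rw [hc x m, mul_inv_cancel_right]), fun m => U ⟨hx, mem_centralizer_singleton_iff.2 (by
      rw [← mul_inv_eq_iff_eq_mul]
      refine k.ψ_inj (conj_mem_of_mem_normalizer (h.nrm hx) hv) hv ?_
      rw [k.equiv x hx v hv, m, e2, e1, H68.Push.upT_mulVec]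
      simp)⟩⟩
  exact ⟨n, _, _, _, c⟩

end N2

end H23.L3
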