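import Mathlib
import Cfsg.Agent.Base
import Cfsg.Agent.Lib.TI2.L3a
import Cfsg.Agent.Lib.KInf.Comm
import Cfsg.Agent.Lib.LocStruct.Res

/-!
# Two natural `SL₂(q)`-blocks with a common Sylow subgroup, II: the modules are self-centralizing
-/

set_option autoImplicit false
set_option linter.unusedSectionVars false

namespace H23.L3

open Subgroup Cfsg H69 H55.Two Gold
open scoped commutatorElement

variable {G : Type*} [Group G] {F : Type*} [Field F] {L L' A B : Subgroup G} {ψ y c : G → F}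

theorem cj_cm (g a b : G) : g⁻¹ * ⁅a, b⁆ * g = ⁅g⁻¹ * a * g, g⁻¹ * b * g⁆ := by
  simp only [commutatorElement_def]; group

theorem cj_mul (g a b : G) : g⁻¹ * (a * b) * g = g⁻¹ * a * g * (g⁻¹ * b * g) := by group

theorem cm_left {X : Subgroup G} {x y : G} (hx : x ∈ X) (hy : y ∈ 𝐍(X)) : ⁅x, y⁆ ∈ X := by
  rw [commutatorElement_def, mul_assoc, mul_assoc, ← mul_assoc y]
  exact mul_mem hx (conj_mem_of_mem_normalizer hy (inv_mem hx))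

theorem cm_right {X : Subgroup G} {x y : G} (hx : x ∈ 𝐍(X)) (hy : y ∈ X) : ⁅x, y⁆ ∈ X :=
  mul_mem (conj_mem_of_mem_normalizer hx hy) (inv_mem hy)

theorem conj_fix {x a : G} : x * a * x⁻¹ = a ↔ x * a = a * x := mul_inv_eq_iff_eq_mul

theorem card_coord {X Y : Subgroup G} {f : G → F} (h1 : ∀ u ∈ X, ∀ v ∈ X, f (u * v) = f u + f v)
    (h2 : ∀ u ∈ X, f u = 0 ↔ u ∈ Y) :
    Nat.card X = (f '' X).ncard * Nat.card (X ⊓ Y : Subgroup G) := by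
  let φ : X →* Multiplicative F :=
    MonoidHom.mk' (fun x => Multiplicative.ofAdd (f x)) fun u v => congrArg _ (h1 u u.2 v v.2)
  rw [H68.Push.card_eq_of_hom φ, show φ.ker = (X ⊓ Y).subgroupOf X from
    Subgroup.ext fun x => (h2 x x.2).trans (and_iff_right x.2).symm, card_subgroupOf inf_le_left]
  congr 1
  exact Nat.card_congr (Multiplicative.toAdd.subtypeEquiv fun t =>
    ⟨fun ⟨x, e⟩ => ⟨x, x.2, e⟩, fun ⟨x, hx, e⟩ => ⟨⟨x, hx⟩, e⟩⟩)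

namespace Co

variable (h : Co F A B ψ y c)
include h

theorem symm : Co F B A ψ c y :=
  ⟨h.toTE.symm, h.two, fun u hu v hv => h.ψ_mul u hu.symm v hv.symm, fun u hu => h.ψ_ker u hu.symm,
    fun t => (h.ψ_surj t).imp fun _ e => ⟨e.1.symm, e.2⟩, h.c_mul, h.c_ker, h.c_surj, h.y_mul,
    h.y_ker, h.y_surj, fun b hb a ha => by rw [h.cm_symm ha hb, h.cm a ha b hb, mul_comm]⟩

theorem cj (g : G) : Co F (A ^ᶜ g) (B ^ᶜ g) (fun x => ψ (g⁻¹ * x * g)) (fun x => y (g⁻¹ * x * g))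
    fun x => c (g⁻¹ * x * g) := by
  have k : ∀ {X : Subgroup G} {f : G → F}, (∀ t, ∃ u ∈ X, f u = t) →
      ∀ t, ∃ u ∈ X ^ᶜ g, f (g⁻¹ * u * g) = t := fun k t => by
    obtain ⟨u, hu, e⟩ := k t
    exact ⟨_, cj_mem g hu, by simpa [mul_assoc] using e⟩
  refine ⟨h.toTE.cj g, h.two, fun u hu v hv => ?_, fun u hu e => ?_, ?_, fun u hu v hv => ?_,
    fun a ha => ?_, k h.y_surj, fun u hu v hv => ?_, fun a ha => ?_, k h.c_surj,
    fun a ha b hb => ?_⟩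
  · rw [cj_mul, h.ψ_mul _ ⟨mem_cj.1 hu.1, mem_cj.1 hu.2⟩ _ ⟨mem_cj.1 hv.1, mem_cj.1 hv.2⟩]
  · simpa [mul_assoc, inv_mul_eq_one, eq_comm] using h.ψ_ker _ ⟨mem_cj.1 hu.1, mem_cj.1 hu.2⟩ e
  · rw [← cj_inf]; exact k h.ψ_surj
  · rw [cj_mul, h.y_mul _ (mem_cj.1 hu) _ (mem_cj.1 hv)]
  · rw [h.y_ker _ (mem_cj.1 ha), mem_cj]
  · rw [cj_mul, h.c_mul _ (mem_cj.1 hu) _ (mem_cj.1 hv)]
  · rw [h.c_ker _ (mem_cj.1 ha), mem_cj]
  · rw [cj_cm, h.cm _ (mem_cj.1 ha) _ (mem_cj.1 hb)]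

theorem ψ_one : ψ 1 = 0 := by simpa using h.ψ_mul 1 (one_mem _) 1 (one_mem _)

theorem add_self (t : F) : t + t = 0 := by rw [← two_mul, h.two, zero_mul]

theorem ψ_inj {u v : G} (hu : u ∈ A ⊓ B) (hv : v ∈ A ⊓ B) (e : ψ u = ψ v) : u = v := by
  have := h.ψ_ker _ (mul_mem hu hv) (by rw [h.ψ_mul u hu v hv, e, h.add_self])
  rw [← h.inv hv.1]; exact eq_inv_of_mul_eq_one_left this

theorem surj {a z : G} (ha : a ∈ A) (haB : a ∉ B) (hz : z ∈ A ⊓ B) : ∃ b ∈ B, ⁅a, b⁆ = z := by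
  obtain ⟨b, hb, e⟩ := h.c_surj (ψ z / y a)
  refine ⟨b, hb, h.ψ_inj (h.cm_mem ha hb) hz ?_⟩
  rw [h.cm a ha b hb, e, mul_div_cancel₀ _ (mt (h.y_ker a ha).1 haB)]

theorem card_Z : Nat.card (A ⊓ B : Subgroup G) = Nat.card F := by
  rw [card_coord (Y := ⊥) h.ψ_mul fun u hu => ⟨h.ψ_ker u hu, fun e => by rw [e, h.ψ_one]⟩,
    Set.eq_univ_of_forall (s := ψ '' (A ⊓ B : Subgroup G)) h.ψ_surj]
  simp

theorem card_A : Nat.card A = Nat.card F ^ 2 := by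
  rw [card_coord h.y_mul h.y_ker, Set.eq_univ_of_forall (s := y '' A) h.y_surj, h.card_Z,
    Set.ncard_univ, sq]

theorem card_B : Nat.card B = Nat.card F ^ 2 := h.symm.card_A

theorem exists_ne [Finite F] (hq : 2 < Nat.card F) (z : G) :
    ∃ w ∈ A ⊓ B, w ≠ 1 ∧ w ≠ z := by
  classical
  haveI := Fintype.ofFinite F
  obtain ⟨t, -, ht⟩ := Finset.exists_mem_notMem_of_card_lt_card (s := {0, ψ z})
    (t := Finset.univ) (Finset.card_le_two.trans_lt (by rwa [Nat.card_eq_fintype_card] at hq))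
  obtain ⟨w, hw, rfl⟩ := h.ψ_surj t
  exact ⟨w, hw, fun e => ht (by simp [e, h.ψ_one]), fun e => ht (by simp [e])⟩

theorem big [Finite F] (hq : 2 < Nat.card F) :
    ∃ a ∈ A, ∃ a' ∈ A, a ∉ B ∧ a' ∉ B ∧ a * a' ∉ B := by
  classical
  haveI := Fintype.ofFinite F
  obtain ⟨t, -, ht⟩ := Finset.exists_mem_notMem_of_card_lt_card (s := {0, (1 : F)})
    (t := Finset.univ) (Finset.card_le_two.trans_lt (by rwa [Nat.card_eq_fintype_card] at hq))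
  obtain ⟨a, ha, rfl⟩ := h.y_surj t
  obtain ⟨a', ha', e⟩ := h.y_surj 1
  refine ⟨a, ha, a', ha', fun k => ht (by simp [(h.y_ker a ha).2 k]),
    fun k => one_ne_zero (e.symm.trans ((h.y_ker a' ha').2 k)), fun k => ht ?_⟩
  rw [← h.y_ker _ (mul_mem ha ha'), h.y_mul a ha a' ha', e, ← h.add_self 1] at k
  simp [add_right_cancel k]

end Co

namespace NB

variable (n : NB L A B)
include n

theorem cj (g : G) : NB (L ^ᶜ g) (A ^ᶜ g) (B ^ᶜ g) := by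
  have k : ∀ l, g * l * g⁻¹ ∈ 𝐍((A ^ᶜ g ⊓ B ^ᶜ g : Subgroup G)) ↔ l ∈ 𝐍((A ⊓ B : Subgroup G)) :=
    fun l => by rw [← cj_inf, ← cj_normalizer, cj_mem_iff]
  refine ⟨n.toTE.cj g, cj_sup A B g ▸ cj_mono g n.JL, cj_normalizer A g ▸ cj_mono g n.LA,
    fun x hx z hz z1 e => ?_, fun a ha a' ha' h1 h1' => ?_, fun l hl hn a ha => ?_, ?_⟩
  · rw [← cj_inf] at hz
    obtain ⟨x, hx', rfl⟩ := mem_cj'.1 hx
    obtain ⟨z, hz', rfl⟩ := mem_cj'.1 hz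
    rw [← cj_sup]
    refine cj_mem g (n.stab x hx' z hz' (mt conj_eq_one_iff.2 z1) ?_)
    rwa [conj_mul, conj_inv, conj_mul, mul_left_inj, mul_right_inj] at e
  · obtain ⟨a, hb, rfl⟩ := mem_cj'.1 ha
    obtain ⟨a', hb', rfl⟩ := mem_cj'.1 ha'
    obtain ⟨l, hl, rfl⟩ := n.tr a hb a' hb' (mt conj_eq_one_iff.2 h1) (mt conj_eq_one_iff.2 h1')
    exact ⟨_, cj_mem g hl, by group⟩
  · obtain ⟨l, hl', rfl⟩ := mem_cj'.1 hl
    obtain ⟨a, ha', rfl⟩ := mem_cj'.1 ha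
    obtain ⟨z, hz, e⟩ := n.spl l hl' (mt (k l).2 hn) a ha'
    refine ⟨_, ⟨cj_mem g hz.1, cj_mem g hz.2⟩, ?_⟩
    rw [conj_mul, conj_inv, conj_mul, conj_mul]
    exact cj_mem g e
  · obtain ⟨l, hl, hn, e⟩ := n.gen
    refine ⟨_, cj_mem g hl, mt (k l).1 hn, (cj_mono g e).trans ?_⟩
    rw [cj_sup, cj_cj, ← cj_sup A B, cj_cj]
    simp

theorem cjL {l : G} (hl : l ∈ L) : NB L A (B ^ᶜ l) := by
  have := n.cj l
  rwa [cj_eq_of_mem hl, cj_eq_of_mem_normalizer (n.LA hl)] at this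

theorem BL : B ≤ L := le_sup_right.trans n.JL

theorem normJ [Finite G] {x z : G} (hx : x ∈ 𝐍(L)) (hz : z ∈ A ⊓ B) (z1 : z ≠ 1)
    (e : x * z * x⁻¹ ∈ A ⊓ B) : x ∈ 𝐍((A ⊔ B : Subgroup G)) :=
  mem_normalizer_of_cj_le fun s hs => by
    obtain ⟨s, hs', rfl⟩ := mem_cj'.1 hs
    refine n.stab _ (conj_mem_of_mem_normalizer hx (n.JL hs')) _ e (mt conj_eq_one_iff.1 z1) ?_
    rw [conj_fix, conj_mul, conj_mul, n.cen hz hs']

theorem cover {a : G} (ha : a ∈ A) (a1 : a ≠ 1) : ∃ l ∈ L, a ∈ B ^ᶜ l := by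
  obtain ⟨⟨z, hz⟩, z1⟩ := ne_bot_iff_exists_ne_one.1 n.Z_ne
  obtain ⟨l, hl, rfl⟩ := n.tr z hz.1 a ha (fun e => z1 (Subtype.ext e)) a1
  exact ⟨l, hl, cj_mem l hz.2⟩

theorem eq_one [Finite G] {l z : G} (hl : l ∈ L) (hn : l ∉ 𝐍((A ⊓ B : Subgroup G)))
    (hz : z ∈ A ⊓ B) (e : z ∈ B ^ᶜ l) : z = 1 := by
  by_contra z1
  refine hn (inv_mem_iff.1 (n.normS_Z (n.normJ (le_normalizer (inv_mem hl)) hz z1 ?_)))
  rw [inv_inv]
  exact ⟨conj_mem_of_mem_normalizer' (n.LA hl) hz.1, mem_cj.1 e⟩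

theorem cenL {a : G} (ha : a ∈ A) (hc : a ∈ 𝐂(L)) : a = 1 := by
  by_contra a1
  obtain ⟨b, hb, hbB⟩ := n.exA
  obtain ⟨⟨z, hz⟩, z1⟩ := ne_bot_iff_exists_ne_one.1 n.Z_ne
  obtain ⟨l, hl, e⟩ := n.tr a ha b hb a1 fun e => hbB (e ▸ one_mem _)
  obtain ⟨l', hl', e'⟩ := n.tr a ha z hz.1 a1 fun e => z1 (Subtype.ext e)
  rw [conj_fix.2 (hc l hl)] at e
  rw [conj_fix.2 (hc l' hl')] at e'
  exact hbB (e ▸ e' ▸ hz.2)

/-- An element acting trivially on `J / Z`, on `Z` and on one more element centralizes `A`. -/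
theorem F1 [Finite G] (h : Co F A B ψ y c) {x : G} (hL : x ∈ 𝐍(L)) (hA : x ∈ 𝐍(A))
    (hB : x ∈ 𝐍(B)) (hZ : x ∈ 𝐂((A ⊓ B : Subgroup G))) (h2 : El2 x) :
    ∃ b ∈ B, b * x ∈ 𝐂(A) := by
  haveI : Fact (Nat.Prime 2) := ⟨Nat.prime_two⟩
  have hx : zpowers x ≤ 𝐍(A) := zpowers_le.2 hA
  obtain ⟨a, ha, haB, e⟩ := H57.exists_fixed_mod_of_isPGroup
    (isPGroup_sup_of_le_normalizer_left n.pA h2.isPGroup hx) le_sup_left le_sup_right hx n.neA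
  have m : ⁅a, x⁆ ∈ A ⊓ B := ⟨cm_left ha hA, e x (mem_zpowers x)⟩
  obtain ⟨b, hb, e1⟩ := h.surj ha haB m
  refine ⟨b, hb, ?_⟩
  set w := b * x
  have wA : w ∈ 𝐍(A) := mul_mem (n.nA hb) hA
  have wB : w ∈ 𝐍(B) := mul_mem (le_normalizer hb) hB
  have wZ : w ∈ 𝐂((A ⊓ B : Subgroup G)) := mul_mem (n.le_centZ (mem_sup_right hb)) hZ
  have e2 : w * a * w⁻¹ = a := by
    rw [conj_fix, eq_comm, ← cm_eq_one, cm_mul_right (n.cen m (mem_sup_right hb)), e1]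
    exact n.sqA _ m.1
  have k1 : ∀ b' ∈ B, b' * (w * b' * w⁻¹) ∈ A := fun b' hb' => by
    have m' := conj_mem_of_mem_normalizer wB hb'
    refine (n.nc a ha _ (mul_mem hb' m') (cm_eq_one.1 ?_)).resolve_left haB
    rw [n.cm_mul_r ha hb' m']
    nth_rewrite 2 [← e2]
    rw [← conj_cm, conj_eq_of_mem_centralizer wZ (n.cm_mem ha hb')]
    exact n.sqA _ (n.cm_mem ha hb').1
  obtain ⟨b0, hb0, hb0A⟩ := n.toTE.symm.exA
  have k2 : ∀ a' ∈ A, a' * (w * a' * w⁻¹) ∈ B := fun a' ha' => by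
    have m' := conj_mem_of_mem_normalizer wA ha'
    have m0 := conj_mem_of_mem_normalizer wB hb0
    refine (n.nc _ (mul_mem ha' m') b0 hb0 (cm_eq_one.1 ?_)).resolve_right hb0A
    have : ⁅w * a' * w⁻¹, b0⁆ = ⁅w * a' * w⁻¹, w * b0 * w⁻¹⁆ := by
      have := n.cm_one_r m' (k1 b0 hb0)
      rw [n.cm_mul_r m' hb0 m0] at this
      rw [eq_inv_of_mul_eq_one_left this, n.inv (n.cm_mem m' m0).1]
    rw [n.cm_mul_l ha' m' hb0, this, ← conj_cm, conj_eq_of_mem_centralizer wZ (n.cm_mem ha' hb0)]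
    exact n.sqA _ (n.cm_mem ha' hb0).1
  obtain ⟨l, hl, al⟩ := n.cover ha fun e => haB (e ▸ one_mem _)
  have hn : l ∉ 𝐍((A ⊓ B : Subgroup G)) := fun e => haB (by
    have := conj_mem_of_mem_normalizer e (a := l⁻¹ * a * l)
      ⟨conj_mem_of_mem_normalizer' (n.LA hl) ha, mem_cj.1 al⟩
    simpa [mul_assoc] using this.2)
  have wZ' := (n.cjL hl).normS_Z ((n.cjL hl).normJ (mul_mem (le_normalizer (n.BL hb)) hL) ⟨ha, al⟩
    (fun e => haB (e ▸ one_mem _)) (e2.symm ▸ ⟨ha, al⟩))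
  intro a' ha'
  obtain ⟨z, hz, e3⟩ := n.spl l hl hn a' ha'
  have m1 : l * z * l⁻¹ ∈ A ⊓ B ^ᶜ l := ⟨conj_mem_of_mem_normalizer (n.LA hl) hz.1, cj_mem l hz.2⟩
  have m2 := mul_mem m1 (conj_mem_of_mem_normalizer wZ' m1)
  have e4 := n.eq_one hl hn ⟨m2.1, k2 _ m1.1⟩ m2.2
  rw [mul_eq_one_iff_inv_eq, n.inv m1.1, eq_comm, conj_fix] at e4
  have e5 := wZ _ ⟨mul_mem ha' m1.1, e3⟩
  rwa [mul_assoc a', ← e4, ← mul_assoc, ← mul_assoc w, mul_left_inj] at e5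

theorem dec_cen {p : G} (hp : p ∈ 𝐂((A ⊔ B : Subgroup G))) (h : ∀ l ∈ L, ⁅l, p⁆ ∈ A) :
    ∃ z ∈ A ⊓ B, z * p ∈ 𝐂(L) := by
  obtain ⟨l, hl, hn, e⟩ := n.gen
  obtain ⟨z, hz, e1⟩ := n.spl l hl hn _ (h l hl)
  have m := conj_mem_of_mem_normalizer (n.LA hl) hz.1
  have m1 : ⁅l, p⁆ * (l * z * l⁻¹) ∈ A ⊓ B := ⟨mul_mem (h l hl) m, e1⟩
  have c1 : A ⊓ B ≤ 𝐂((A ⊔ B : Subgroup G)) := le_centralizer_iff.1 n.le_centZ
  refine ⟨_, m1, centralizer_anti e ?_⟩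
  rw [H69.centralizer_sup (A ⊔ B)]
  refine ⟨mul_mem (c1 m1) hp, ?_⟩
  rw [← cj_centralizer, n.comm (h l hl) m, show l * z * l⁻¹ * ⁅l, p⁆ * p = l * (z * p) * l⁻¹ by
    rw [commutatorElement_def]; group]
  exact cj_mem l (mul_mem (c1 hz) hp)

theorem cen_cen [Finite G] [Finite F] (h : Co F A B ψ y c) (hq : 2 < Nat.card F) (n' : NB L' B A)
    (m : 𝐍(B) ≤ 𝐍(L')) {d : G} (hd : d ∈ 𝐂(L)) : d ∈ 𝐂(L') := by
  have dJ : d ∈ 𝐂((B ⊔ A : Subgroup G)) := centralizer_anti (sup_comm A B ▸ n.JL) hd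
  have dB : d ∈ 𝐂(B) := centralizer_anti le_sup_left dJ
  obtain ⟨z, hz, e⟩ := n'.dec_cen dJ fun l hl => by
    have c1 : ⁅l, d⁆ ∈ 𝐂(B) := cm_right (normalizer_le_normalizer_centralizer B (n'.LA hl)) dB
    obtain ⟨⟨z, hz⟩, z1⟩ := ne_bot_iff_exists_ne_one.1 n'.Z_ne
    exact n'.mem_of_cent (n'.stab _ (cm_left hl (m (centralizer_le_normalizer _ dB))) z hz
      (fun e => z1 (Subtype.ext e)) (conj_eq_of_mem_centralizer c1 hz.1)) c1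
  by_cases z1 : z = 1
  · rwa [z1, one_mul] at e
  obtain ⟨w, hw, w1, wz⟩ := h.exists_ne hq z
  obtain ⟨t, ht, e1⟩ := n.tr z hz.2 w hw.1 z1 w1
  have tJ := n.normJ (le_normalizer ht) hz.symm z1 (e1 ▸ hw)
  have tB : t ∈ 𝐍(B) := mem_normalizer_of_cj_le ((n.le_or
    (cj_le_of_mem_normalizer le_sup_right tJ) (n.toTE.cj t).sqB).resolve_left fun k =>
      (n.toTE.cjN (n.LA ht)).neB k)
  have := conj_mem_of_mem_normalizer (normalizer_le_normalizer_centralizer _ (m tB)) e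
  rw [← conj_mul, e1, conj_fix.2 (hd t ht)] at this
  have := n'.cenL (mul_mem hw.2 (inv_mem hz.1)) (by simpa using mul_mem this (inv_mem e))
  exact absurd (mul_inv_eq_one.1 this) wz

/-- `O₂(N(A)) ≤ A C(L)` -/
theorem core [Finite G] (h : Co F A B ψ y c) (n' : NB L' B A) (m : 𝐍(A) ≤ 𝐍(L))
    (m' : 𝐍(B) ≤ 𝐍(L')) (hS : IsSylowIn 2 (A ⊔ B) L) {x : G} (hx : x ∈ pCoreOf 2 𝐍(A)) :
    ∃ a ∈ A, a * x ∈ pCoreOf 2 𝐍(A) ⊓ 𝐂(L) := by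
  haveI : Fact (Nat.Prime 2) := ⟨Nat.prime_two⟩
  set Q := pCoreOf 2 𝐍(A)
  have pQ : IsPGroup 2 Q := H70.isPGroup_pCoreOf 2 _
  have QN : Q ≤ 𝐍(A) := H70.pCoreOf_le 2 _
  have nQ : 𝐍(A) ≤ 𝐍(Q) := H70.le_normalizer_pCoreOf 2 _
  have AQ : A ≤ Q := H70.le_pCoreOf n.pA le_normalizer le_rfl
  have QL : Q ⊓ L ≤ A := by
    obtain ⟨l, hl, hn, -⟩ := n.gen
    have k : Q ⊓ L ≤ A ⊔ B := hS.le_of_le_normalizer (pQ.to_le inf_le_left) inf_le_right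
      (H69.le_normalizer_inf (n.normA.trans nQ) (n.JL.trans le_normalizer))
    intro s hs
    obtain ⟨⟨z, hz⟩, z1⟩ := ne_bot_iff_exists_ne_one.1 n.Z_ne
    have zl : l * z * l⁻¹ ∉ B := fun e => hn (n.normS_Z (n.normJ (le_normalizer hl) hz
      (fun e => z1 (Subtype.ext e)) ⟨conj_mem_of_mem_normalizer (n.LA hl) hz.1, e⟩))
    refine n.cent (k hs) (conj_mem_of_mem_normalizer (n.LA hl) hz.1) zl ?_
    have := n.cen hz (k ⟨conj_mem_of_mem_normalizer' (nQ (n.LA hl)) hs.1,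
      conj_mem_of_mem_normalizer' (le_normalizer hl) hs.2⟩)
    calc s * (l * z * l⁻¹) = l * (l⁻¹ * s * l * z) * l⁻¹ := by group
      _ = _ := by rw [this]; group
  have cmA : ∀ x ∈ Q, ∀ l ∈ L, ⁅l, x⁆ ∈ A := fun x hx l hl =>
    QL ⟨cm_right (nQ (n.LA hl)) hx, cm_left hl (m (QN hx))⟩
  have QC : Q ≤ 𝐂(A) := by
    obtain ⟨⟨v, hv, hc⟩, v1⟩ := ne_bot_iff_exists_ne_one.1 (inf_centralizer_ne_bot n.pA pQ QN
      fun e => n.neA (e ▸ bot_le))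
    intro x hx a ha
    by_cases a1 : a = 1
    · simp [a1]
    obtain ⟨l, hl, rfl⟩ := n.tr v hv a ha (fun e => v1 (Subtype.ext e)) a1
    have := hc _ (conj_mem_of_mem_normalizer' (nQ (n.LA hl)) hx)
    calc l * v * l⁻¹ * x = l * (v * (l⁻¹ * x * l)) * l⁻¹ := by group
      _ = _ := by rw [← this]; group
  have xB : x ∈ 𝐍(B) := by
    refine mem_normalizer_of_cj_le ((n.le_or (fun s hs => ?_) (n.toTE.cj x).sqB).resolve_left
      fun k => (n.toTE.cjN (QN hx)).neB k)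
    obtain ⟨b, hb, rfl⟩ := mem_cj'.1 hs
    rw [show x * b * x⁻¹ = ⁅b, x⁆⁻¹ * b by rw [commutatorElement_def]; group]
    exact mul_mem (mem_sup_left (inv_mem (cmA x hx b (n.BL hb)))) (mem_sup_right hb)
  obtain ⟨a, ha, e⟩ := n'.F1 h.symm (m' xB) xB (QN hx) (centralizer_anti inf_le_right (QC hx))
    (El2.of_mem pQ hx)
  have m1 := mul_mem (AQ ha) hx
  obtain ⟨z, hz, e'⟩ := n.dec_cen (p := a * x) (by
    rw [H69.centralizer_sup]; exact ⟨QC m1, e⟩) (cmA _ m1)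
  exact ⟨z * a, mul_mem hz.1 ha, by rw [mul_assoc]; exact ⟨mul_mem (AQ hz.1) m1, e'⟩⟩

end NB

/-- The configuration of two natural blocks. -/
structure Cf (F : Type*) [Field F] (L L' A B : Subgroup G) : Prop where
  n1 : NB L A B
  n2 : NB L' B A
  co : ∃ ψ y c, Co F A B ψ y c
  m1 : 𝐍(A) ≤ 𝐍(L)
  m2 : 𝐍(B) ≤ 𝐍(L')
  cA : 𝐂(A) ≤ A
  cB : 𝐂(B) ≤ B

theorem charP (hG : IsCharacteristicTwoType G) {X : Subgroup G} (h : IsPGroup 2 X) (h1 : X ≠ ⊥) :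
    H70.CharP 2 𝐍(X) := H70.charP_iff.2 (hG.2 X h h1)

theorem mk_cf [Finite G] [Finite F] (hG : IsCharacteristicTwoType G) (hq : 2 < Nat.card F)
    (n : NB L A B) (n' : NB L' B A) (h : Co F A B ψ y c) (m : 𝐍(A) ≤ 𝐍(L)) (m' : 𝐍(B) ≤ 𝐍(L'))
    (hS : IsSylowIn 2 (A ⊔ B) L) (hS' : IsSylowIn 2 (B ⊔ A) L') {T : Subgroup G}
    (hT : IsSylowIn 2 T 𝐍(A)) (hO : pCoreOf 2 (T ⊔ L ⊔ L') = ⊥) : Cf F L L' A B := by
  have k : ∀ {L A B : Subgroup G}, NB L A B → pCoreOf 2 𝐍(A) ≤ A → 𝐂(A) ≤ A := fun n e x hx =>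
    e (charP hG n.pA (fun e => n.neA (e ▸ bot_le)) ⟨centralizer_le_normalizer _ hx,
      centralizer_anti e hx⟩)
  have nD : 𝐍(A) ≤ 𝐍((pCoreOf 2 𝐍(A) ⊓ 𝐂(L) : Subgroup G)) := H69.le_normalizer_inf
    (H70.le_normalizer_pCoreOf 2 _) (m.trans (normalizer_le_normalizer_centralizer L))
  have D : pCoreOf 2 𝐍(A) ⊓ 𝐂(L) ≤ ⊥ := hO ▸ H70.le_pCoreOf
    ((H70.isPGroup_pCoreOf 2 _).to_le inf_le_left)
    (inf_le_left.trans (hT.pCoreOf_le.trans (le_sup_left.trans le_sup_left)))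
    (sup_le (sup_le (hT.le.trans nD) (n.LA.trans nD)) (le_normalizer_of_le_centralizer
      (le_centralizer_iff.1 fun d hd => n.cen_cen h hq n' m' hd.2)))
  have cA := k n fun x hx => by
    obtain ⟨a, ha, e⟩ := n.core h n' m m' hS hx
    rw [eq_inv_of_mul_eq_one_right (mem_bot.1 (D e))]
    exact inv_mem ha
  refine ⟨n, n', ⟨_, _, _, h⟩, m, m', cA, k n' fun x hx => ?_⟩
  obtain ⟨b, hb, e⟩ := n'.core h.symm n m' m hS' hx
  have := n'.cen_cen h.symm hq n m e.2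
  rw [eq_inv_of_mul_eq_one_right (n.cenL (cA (centralizer_anti (le_sup_left.trans n.JL) this)) this)]
  exact inv_mem hb

end H23.L3
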