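import Mathlib
import Cfsg.Agent.Base
import Cfsg.Agent.Lib.TI2.L3b
import Cfsg.Agent.Lib.AutCl.Galois
import Cfsg.Agent.Lib.Cls.Basic

/-!
# Two natural `SL₂(q)`-blocks with a common Sylow subgroup, III: semilinear action of `N(J)`
-/

set_option autoImplicit false
set_option linter.unusedSectionVars false

namespace H23.L3

open Subgroup Cfsg H69 H55.Two Gold
open scoped commutatorElement

variable {G : Type*} [Group G] [Finite G] {F : Type*} [Field F] [Finite F]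
  {L L' A B : Subgroup G} {ψ y c ψ' y' c' : G → F}

theorem isotopy {α β γ : F → F} (h1 : ∀ s t, γ (s + t) = γ s + γ t) (h2 : γ 1 ≠ 0)
    (h3 : ∀ s t, γ (s * t) = α s * β t) :
    ∃ σ : RingAut F, (∀ t, γ t = γ 1 * σ t) ∧ ∀ t, α t = α 1 * σ t := by
  have e := h3 1 1
  rw [mul_one] at e
  have a1 : α 1 ≠ 0 := left_ne_zero_of_mul (e ▸ h2)
  have b1 : β 1 ≠ 0 := right_ne_zero_of_mul (e ▸ h2)
  have ea : ∀ s, γ s = α s * β 1 := fun s => by rw [← h3, mul_one]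
  have eb : ∀ s, γ s = α 1 * β s := fun s => by rw [← h3, one_mul]
  let f : F →+* F :=
    { toFun := fun t => γ t / γ 1
      map_one' := div_self h2
      map_mul' := fun s t => by rw [h3, ea s, eb t, e]; field_simp
      map_zero' := by rw [show γ 0 = 0 by simpa using h1 0 0, zero_div]
      map_add' := fun s t => by rw [h1, add_div] }
  refine ⟨RingEquiv.ofBijective f (Finite.injective_iff_bijective.1 f.injective), fun t => ?_,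
    fun t => ?_⟩
  · exact (mul_div_cancel₀ _ h2).symm
  · change α t = α 1 * (γ t / γ 1)
    rw [ea t, e]; field_simp

theorem ncard_fix {σ : RingAut F} (h : σ ≠ 1) (l : F) :
    {t | l * σ t = t}.ncard ^ 2 ≤ Nat.card F := by
  obtain ⟨d, hd⟩ : ∃ d, σ d ≠ d := by
    by_contra k
    push Not at k
    exact h (RingEquiv.ext k)
  rw [sq, ← Nat.card_coe_set_eq, ← Nat.card_prod]
  refine Nat.card_le_card_of_injective (fun z => z.1.1 + z.2.1 * d) fun a b e => ?_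
  have h1 := congrArg (fun t => l * σ t) e
  have a1 : l * σ a.1.1 = _ := a.1.2
  have a2 : l * σ a.2.1 = _ := a.2.2
  have b1 : l * σ b.1.1 = _ := b.1.2
  have b2 : l * σ b.2.1 = _ := b.2.2
  simp only [map_add, map_mul, mul_add, ← mul_assoc, a1, a2, b1, b2] at h1 e
  have h2 : a.2.1 = b.2.1 := mul_right_cancel₀ (sub_ne_zero.2 hd) (by linear_combination h1 - e)
  exact Prod.ext (Subtype.ext (by rwa [h2, add_left_inj] at e)) (Subtype.ext h2)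

theorem ncard_im {σ : RingAut F} (h : σ ≠ 1) (l : F) :
    Nat.card F ≤ (Set.range fun t => l * σ t - t).ncard ^ 2 := by
  let f : F →+ F := AddMonoidHom.mk' (fun t => l * σ t - t) fun s t => by rw [map_add]; ring
  have e : Nat.card f.ker * (Set.range f).ncard = Nat.card F := by
    rw [← f.ker.card_mul_index, AddSubgroup.index_ker]; rfl
  have k : Nat.card f.ker ^ 2 ≤ Nat.card F := by
    convert ncard_fix h l using 2
    exact Nat.card_congr (Equiv.subtypeEquivRight fun t => sub_eq_zero)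
  change _ ≤ (Set.range f).ncard ^ 2
  by_contra k'
  have := Nat.mul_lt_mul_of_le_of_lt k (not_le.1 k') Nat.card_pos
  rw [← mul_pow, e, sq] at this
  exact this.false

theorem _root_.H55.Two.TE.sw (h : TE A B) {x : G} (hx : x ∈ 𝐍((A ⊔ B : Subgroup G))) :
    (x ∈ 𝐍(A) ∧ x ∈ 𝐍(B)) ∨ (A ^ᶜ x = B ∧ B ^ᶜ x = A) := by
  have k := h.cj x
  rcases h.le_or (cj_le_of_mem_normalizer le_sup_left hx) k.sqA with e | e <;>
    rcases h.le_or (cj_le_of_mem_normalizer le_sup_right hx) k.sqB with e' | e'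
  · exact absurd (e'.trans (cj_eq_of_cj_le e).ge) k.neB
  · exact Or.inl ⟨mem_normalizer_of_cj_le e, mem_normalizer_of_cj_le e'⟩
  · have c1 := card_le_of_le e
    have c2 := card_le_of_le e'
    rw [card_cj] at c1 c2
    exact Or.inr ⟨eq_of_le_of_card_ge e (by rwa [card_cj]), eq_of_le_of_card_ge e' (by rwa [card_cj])⟩
  · exact absurd (e.trans (cj_eq_of_cj_le e').ge) k.neA

theorem _root_.H55.Two.TE.swB (h : TE A B) {x : G} (hx : x ∈ 𝐍((A ⊔ B : Subgroup G)))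
    (hA : x ∈ 𝐍(A)) : x ∈ 𝐍(B) :=
  (h.sw hx).elim And.right fun e => absurd ((cj_eq_of_mem_normalizer hA).symm.trans e.1) h.ne

theorem _root_.H55.Two.TE.sw' (h : TE A B) {x : G} (hx : x ∈ 𝐍((A ⊔ B : Subgroup G)))
    (hA : x ∉ 𝐍(A)) : A ^ᶜ x = B ∧ B ^ᶜ x = A := (h.sw hx).resolve_left fun e => hA e.1

theorem _root_.H55.Two.TE.sw_mul (h : TE A B) {x w : G} (hx : x ∈ 𝐍((A ⊔ B : Subgroup G)))
    (hw : w ∈ 𝐍((A ⊔ B : Subgroup G))) (hA : x ∉ 𝐍(A)) (hA' : w ∉ 𝐍(A)) : x * w ∈ 𝐍(A) := by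
  rw [← cj_eq_self_iff, ← cj_cj, (h.sw' hw hA').1, (h.sw' hx hA).2]

theorem _root_.H55.Two.TE.cm_NA (h : TE A B) {x w : G} (hx : x ∈ 𝐍((A ⊔ B : Subgroup G)))
    (hw : w ∈ 𝐍((A ⊔ B : Subgroup G))) : ⁅x, w⁆ ∈ 𝐍(A) := by
  have nN : 𝐍((A ⊔ B : Subgroup G)) ≤ 𝐍((𝐍(A) ⊓ 𝐍(B) : Subgroup G)) := fun g hg => by
    rw [← cj_eq_self_iff, cj_inf, cj_normalizer, cj_normalizer]
    rcases h.sw hg with e | e
    · rw [cj_eq_of_mem_normalizer e.1, cj_eq_of_mem_normalizer e.2]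
    · rw [e.1, e.2, inf_comm]
  by_cases e : x ∈ 𝐍(A)
  · exact (cm_left (mem_inf.2 ⟨e, h.swB hx e⟩) (nN hw)).1
  by_cases e' : w ∈ 𝐍(A)
  · exact (cm_right (nN hx) (mem_inf.2 ⟨e', h.swB hw e'⟩)).1
  rw [commutatorElement_def, mul_assoc]
  exact mul_mem (h.sw_mul hx hw e e') (h.sw_mul (inv_mem hx) (inv_mem hw) (mt inv_mem_iff.1 e)
    (mt inv_mem_iff.1 e'))

namespace Co

variable (h : Co F A B ψ y c)
include h

theorem iso (h' : Co F A B ψ' y' c') : ∃ (σ : RingAut F) (l m : F), l ≠ 0 ∧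
    (∀ z ∈ A ⊓ B, ψ' z = l * σ (ψ z)) ∧ ∀ a ∈ A, y' a = m * σ (y a) := by
  choose zf hz ez using h.ψ_surj
  choose af ha ea using h.y_surj
  choose bf hb eb using h.c_surj
  have k : ∀ z ∈ A ⊓ B, zf (ψ z) = z := fun z hz' => h.ψ_inj (hz _) hz' (ez _)
  have h2 : ψ' (zf 1) ≠ 0 := fun e => one_ne_zero (by rw [← ez 1, h'.ψ_ker _ (hz 1) e, h.ψ_one])
  obtain ⟨σ, h3, h4⟩ := isotopy (α := fun t => y' (af t)) (β := fun t => c' (bf t))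
    (γ := fun t => ψ' (zf t)) (fun s t => by
      rw [← h'.ψ_mul _ (hz s) _ (hz t), ← k _ (mul_mem (hz s) (hz t)), h.ψ_mul _ (hz s) _ (hz t),
        ez, ez]) h2 fun s t => by
      rw [← h'.cm _ (ha s) _ (hb t), ← k _ (h.cm_mem (ha s) (hb t)), h.cm _ (ha s) _ (hb t), ea, eb]
  refine ⟨σ, _, y' (af 1), h2, fun z hz' => by rw [← h3, k z hz'], fun a ha' => ?_⟩
  have := (h'.y_ker _ (mul_mem ha' (ha _))).2 ((h.y_ker _ (mul_mem ha' (ha (y a)))).1 (by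
    rw [h.y_mul a ha' _ (ha _), ea, h.add_self]))
  rw [h'.y_mul a ha' _ (ha _), ← h.add_self (y' a), add_right_inj] at this
  rw [← h4, this]

omit h in
/-- `x` acts on `Z` as a `σ`-semilinear map. -/
def Sl (Z : Subgroup G) (ψ : G → F) (x : G) (σ : RingAut F) : Prop :=
  ∃ l : F, l ≠ 0 ∧ ∀ z ∈ Z, ψ (x * z * x⁻¹) = l * σ (ψ z)

theorem sl_uniq {x : G} {σ σ' : RingAut F} (h1 : Sl (A ⊓ B) ψ x σ) (h2 : Sl (A ⊓ B) ψ x σ') :
    σ = σ' := by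
  obtain ⟨l, l0, h1⟩ := h1
  obtain ⟨l', -, h2⟩ := h2
  have k : ∀ t, l * σ t = l' * σ' t := fun t => by
    obtain ⟨z, hz, rfl⟩ := h.ψ_surj t
    rw [← h1 z hz, h2 z hz]
  have e : l = l' := by simpa using k 1
  exact RingEquiv.ext fun t => mul_left_cancel₀ l0 (by rw [k, e])

theorem sl_A {x : G} (hA : x ∈ 𝐍(A)) (hB : x ∈ 𝐍(B)) : ∃ σ, Sl (A ⊓ B) ψ x σ ∧
    ∃ m, ∀ a ∈ A, y (x * a * x⁻¹) = m * σ (y a) := by
  have k := h.cj x⁻¹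
  rw [cj_eq_of_mem_normalizer (inv_mem hA), cj_eq_of_mem_normalizer (inv_mem hB), inv_inv] at k
  obtain ⟨σ, l, m, l0, h1, h2⟩ := h.iso k
  exact ⟨σ, ⟨l, l0, h1⟩, m, h2⟩

theorem exists_sl {x : G} (hx : x ∈ 𝐍((A ⊔ B : Subgroup G))) : ∃ σ, Sl (A ⊓ B) ψ x σ := by
  rcases h.sw (inv_mem hx) with e | e
  · exact (h.sl_A (inv_mem_iff.1 e.1) (inv_mem_iff.1 e.2)).imp fun _ => And.left
  · have k := h.cj x⁻¹
    rw [e.1, e.2, inv_inv] at k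
    obtain ⟨σ, l, m, l0, h1, -⟩ := h.iso k.symm
    exact ⟨σ, l, l0, h1⟩

theorem exists_tau : ∃ τ : 𝐍((A ⊔ B : Subgroup G)) →* RingAut F,
    ∀ x : 𝐍((A ⊔ B : Subgroup G)), Sl (A ⊓ B) ψ x (τ x) := by
  choose τ hτ using fun x : 𝐍((A ⊔ B : Subgroup G)) => h.exists_sl x.2
  refine ⟨MonoidHom.mk' τ fun x w => h.sl_uniq (hτ _) ?_, hτ⟩
  obtain ⟨l, l0, h1⟩ := hτ x
  obtain ⟨l', l0', h2⟩ := hτ w
  refine ⟨l * τ x l', by simp [l0, l0'], fun z hz => ?_⟩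
  rw [show ((x * w : 𝐍((A ⊔ B : Subgroup G))) : G) * z * ((x * w : 𝐍((A ⊔ B : Subgroup G))) : G)⁻¹
    = x * (w * z * (w : G)⁻¹) * (x : G)⁻¹ by rw [coe_mul]; group,
    h1 _ (conj_mem_of_mem_normalizer (h.normS_Z w.2) hz), h2 z hz, map_mul, mul_assoc]
  rfl

theorem sl_one {x : G} (hx : x ∈ 𝐂((A ⊓ B : Subgroup G))) : Sl (A ⊓ B) ψ x 1 :=
  ⟨1, one_ne_zero, fun z hz => by rw [conj_eq_of_mem_centralizer hx hz, one_mul]; rfl⟩

theorem cen_of_sl {x : G} (hx : x ∈ 𝐍((A ⊓ B : Subgroup G))) (h2 : El2 x)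
    (h1 : Sl (A ⊓ B) ψ x 1) : x ∈ 𝐂((A ⊓ B : Subgroup G)) := by
  obtain ⟨l, -, h1⟩ := h1
  obtain ⟨k, hk⟩ := h2
  have e : ∀ n : ℕ, ∀ z ∈ A ⊓ B, ψ (x ^ n * z * (x ^ n)⁻¹) = l ^ n * ψ z := fun n z hz => by
    induction n with
    | zero => simp
    | succ n ih =>
      rw [show x ^ (n + 1) * z * (x ^ (n + 1))⁻¹ = x * (x ^ n * z * (x ^ n)⁻¹) * x⁻¹ by group,
        h1 _ (conj_mem_of_mem_normalizer (pow_mem hx n) hz), ih, pow_succ', mul_assoc]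
      rfl
  obtain ⟨z, hz, ez⟩ := h.ψ_surj 1
  have e1 := e (2 ^ k) z hz
  rw [hk, one_mul, inv_one, mul_one, ez, mul_one] at e1
  have e2 : l = 1 := by
    clear hk e
    induction k with
    | zero => simpa using e1.symm
    | succ k ih =>
      refine ih ?_
      rw [pow_succ, pow_mul] at e1
      exact (pow_eq_zero_iff two_ne_zero).1 (show (1 - l ^ 2 ^ k) ^ 2 = 0 by
        linear_combination (1 - l ^ 2 ^ k) * h.two - e1) |> sub_eq_zero.1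
  intro z hz
  rw [eq_comm, ← conj_fix]
  exact h.ψ_inj (conj_mem_of_mem_normalizer hx hz) hz (by rw [h1 z hz, e2, one_mul]; rfl)

theorem cm_cen {x w : G} (hx : x ∈ 𝐍((A ⊔ B : Subgroup G))) (hw : w ∈ 𝐍((A ⊔ B : Subgroup G)))
    (h2 : El2 ⁅x, w⁆) : ⁅x, w⁆ ∈ 𝐂((A ⊓ B : Subgroup G)) := by
  obtain ⟨τ, hτ⟩ := h.exists_tau
  have := hτ ⁅(⟨x, hx⟩ : 𝐍((A ⊔ B : Subgroup G))), ⟨w, hw⟩⁆
  rw [map_commutatorElement, commutatorElement_eq_one_iff_mul_comm.2 (H67.ringAut_comm _ _)] at this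
  exact h.cen_of_sl (h.normS_Z (cm_left hx (le_normalizer hw))) h2 this

theorem mul_cen {x w : G} (hx : x ∈ 𝐍((A ⊔ B : Subgroup G))) (hw : w ∈ 𝐍((A ⊔ B : Subgroup G)))
    (x2 : x * x ∈ 𝐂((A ⊓ B : Subgroup G))) (w2 : w * w ∈ 𝐂((A ⊓ B : Subgroup G)))
    (x1 : x ∉ 𝐂((A ⊓ B : Subgroup G))) (w1 : w ∉ 𝐂((A ⊓ B : Subgroup G))) (e1 : El2 x)
    (e2 : El2 w) (e3 : El2 (x * w)) : x * w ∈ 𝐂((A ⊓ B : Subgroup G)) := by
  obtain ⟨τ, hτ⟩ := h.exists_tau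
  have k : ∀ x : 𝐍((A ⊔ B : Subgroup G)), (x : G) * x ∈ 𝐂((A ⊓ B : Subgroup G)) → τ x ^ 2 = 1 :=
    fun x e => by rw [sq, ← map_mul]; exact h.sl_uniq (hτ _) (h.sl_one e)
  have k' : ∀ x : 𝐍((A ⊔ B : Subgroup G)), El2 (x : G) → τ x = 1 →
      (x : G) ∈ 𝐂((A ⊓ B : Subgroup G)) := fun x e e' =>
    h.cen_of_sl (h.normS_Z x.2) e (e' ▸ hτ x)
  refine k' (⟨x, hx⟩ * ⟨w, hw⟩) e3 ?_
  rw [map_mul, H19.eq_of_isCyclic_of_sq_eq_one (mt (k' ⟨x, hx⟩ e1) x1) (k _ x2)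
    (mt (k' ⟨w, hw⟩ e2) w1) (k _ w2), ← sq, k _ w2]

theorem sq_cen (h4 : Nat.card F = 4) {x : G} (hx : x ∈ 𝐍((A ⊔ B : Subgroup G))) (e : El2 x) :
    x * x ∈ 𝐂((A ⊓ B : Subgroup G)) := by
  haveI : Fact (Nat.Prime 2) := ⟨Nat.prime_two⟩
  obtain ⟨τ, hτ⟩ := h.exists_tau
  have := hτ (⟨x, hx⟩ * ⟨x, hx⟩)
  rw [map_mul, ← sq (τ _), ← H67.card_ringAut (p := 2) (f := 2) h4, pow_card_eq_one'] at this
  exact h.cen_of_sl (h.normS_Z (mul_mem hx hx)) (e.mul e rfl) this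

theorem card_fixZ' {x : G} {σ : RingAut F} (h1 : Sl (A ⊓ B) ψ x σ) (h2 : σ ≠ 1) {E : Subgroup G}
    (hE : E ≤ A ⊓ B) (hc : ∀ e ∈ E, x * e = e * x) : Nat.card E ^ 2 ≤ Nat.card F := by
  obtain ⟨l, -, h1⟩ := h1
  refine (Nat.pow_le_pow_left (Nat.card_le_card_of_injective
    (fun e : E => (⟨ψ e, ?_⟩ : {t | l * σ t = t})) fun a b e => ?_) 2).trans (ncard_fix h2 l)
  · exact (h1 e (hE e.2)).symm.trans (by rw [conj_fix.2 (hc e e.2)])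
  · exact Subtype.ext (h.ψ_inj (hE a.2) (hE b.2) (congrArg Subtype.val e))

theorem card_fixZ {x : G} (hx : x ∈ 𝐍((A ⊔ B : Subgroup G))) (e : El2 x)
    (x1 : x ∉ 𝐂((A ⊓ B : Subgroup G))) {E : Subgroup G} (hE : E ≤ A ⊓ B)
    (hc : ∀ e ∈ E, x * e = e * x) : Nat.card E ^ 2 ≤ Nat.card F := by
  obtain ⟨σ, h1⟩ := h.exists_sl hx
  exact h.card_fixZ' h1 (fun e' => x1 (h.cen_of_sl (h.normS_Z hx) e (e' ▸ h1))) hE hc

theorem card_fixA {x : G} (hA : x ∈ 𝐍(A)) (hB : x ∈ 𝐍(B)) (e : El2 x)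
    (x1 : x ∉ 𝐂((A ⊓ B : Subgroup G))) {E : Subgroup G} (hE : E ≤ A)
    (hc : ∀ e ∈ E, x * e = e * x) : Nat.card E ≤ Nat.card F := by
  obtain ⟨σ, h1, m, h2⟩ := h.sl_A hA hB
  have s1 : σ ≠ 1 := fun e' => x1 (h.cen_of_sl (H69.le_normalizer_inf inf_le_left inf_le_right
    (mem_inf.2 ⟨hA, hB⟩)) e (e' ▸ h1))
  have c1 := h.card_fixZ' h1 s1 (inf_le_inf_right B hE) fun e he => hc e he.1
  have c2 : (y '' E).ncard ^ 2 ≤ Nat.card F := (Nat.pow_le_pow_left (Set.ncard_le_ncard (by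
    rintro _ ⟨a, ha, rfl⟩
    exact (h2 a (hE ha)).symm.trans (by rw [conj_fix.2 (hc a ha)]))) 2).trans (ncard_fix s1 m)
  rw [card_coord (fun u hu v hv => h.y_mul u (hE hu) v (hE hv)) fun u hu => h.y_ker u (hE hu),
    ← Nat.pow_le_pow_iff_left two_ne_zero, mul_pow, sq (Nat.card F)]
  exact Nat.mul_le_mul c2 c1

theorem card_fixA' {x : G} (hA : x ∈ 𝐍(A)) (hB : x ∈ 𝐍(B)) (e : El2 x)
    (x1 : x ∉ 𝐂((A ⊓ B : Subgroup G))) {E : Subgroup G} (hE : E ≤ A)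
    (hc : ∀ e ∈ E, ⁅x, e⁆ ∈ B) : Nat.card E ^ 2 ≤ Nat.card F ^ 3 := by
  obtain ⟨σ, h1, m, h2⟩ := h.sl_A hA hB
  have s1 : σ ≠ 1 := fun e' => x1 (h.cen_of_sl (H69.le_normalizer_inf inf_le_left inf_le_right
    (mem_inf.2 ⟨hA, hB⟩)) e (e' ▸ h1))
  have c2 : (y '' E).ncard ^ 2 ≤ Nat.card F := (Nat.pow_le_pow_left (Set.ncard_le_ncard (by
    rintro _ ⟨a, ha, rfl⟩
    have := (h.y_ker _ (cm_right hA (hE ha))).2 (hc a ha)
    rwa [commutatorElement_def, h.inv (hE ha), h.y_mul _ (conj_mem_of_mem_normalizer hA (hE ha)) a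
      (hE ha), h2 a (hE ha), ← h.add_self (y a), add_left_inj] at this)) 2).trans (ncard_fix s1 m)
  rw [card_coord (fun u hu v hv => h.y_mul u (hE hu) v (hE hv)) fun u hu => h.y_ker u (hE hu),
    mul_pow, pow_succ' _ 2]
  exact Nat.mul_le_mul c2 (Nat.pow_le_pow_left (h.card_Z ▸ card_le_of_le (inf_le_inf_right B hE)) 2)

theorem card_cmA {x : G} (hA : x ∈ 𝐍(A)) (hB : x ∈ 𝐍(B)) (e : El2 x)
    (x1 : x ∉ 𝐂((A ⊓ B : Subgroup G))) {Y : Subgroup G} (hZ : A ⊓ B ≤ Y)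
    (hc : ∀ a ∈ A, ⁅x, a⁆ ∈ Y) : Nat.card F ^ 3 ≤ Nat.card (Y ⊓ A : Subgroup G) ^ 2 := by
  obtain ⟨σ, h1, m, h2⟩ := h.sl_A hA hB
  have s1 : σ ≠ 1 := fun e' => x1 (h.cen_of_sl (H69.le_normalizer_inf inf_le_left inf_le_right
    (mem_inf.2 ⟨hA, hB⟩)) e (e' ▸ h1))
  rw [card_coord (X := Y ⊓ A) (fun u hu v hv => h.y_mul u hu.2 v hv.2) fun u hu => h.y_ker u hu.2,
    inf_assoc, inf_eq_right.2 hZ, h.card_Z, mul_pow, pow_succ' _ 2]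
  refine Nat.mul_le_mul_right _ ((ncard_im s1 m).trans (Nat.pow_le_pow_left (Set.ncard_le_ncard ?_) 2))
  rintro _ ⟨t, rfl⟩
  obtain ⟨a, ha, rfl⟩ := h.y_surj t
  refine ⟨_, ⟨hc a ha, cm_right hA ha⟩, ?_⟩
  rw [commutatorElement_def, h.inv ha, h.y_mul _ (conj_mem_of_mem_normalizer hA ha) a ha, h2 a ha,
    eq_sub_iff_add_eq, add_assoc, h.add_self, add_zero]

end Co

end H23.L3
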