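import Mathlib
import Cfsg.Agent.Base
import Cfsg.Agent.Lib.TI2.L3c
import Cfsg.Agent.Lib.FGS83.MacD
import Cfsg.Agent.Lib.Tech58.Harada

/-!
# Two natural `SL₂(q)`-blocks with a common Sylow subgroup, IV: Sylow subgroups, the case `q = 4`
-/

set_option autoImplicit false
set_option linter.unusedSectionVars false

namespace H23.L3

open Subgroup Cfsg H69 H45 H55.Two Gold
open scoped commutatorElement

variable {G : Type*} [Group G] [Finite G] {F : Type*} [Field F] [Finite F]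
  {L L' A B E S : Subgroup G}

theorem idx2 {X : Subgroup G} (h : ∀ x ∈ E, ∀ y ∈ E, x ∉ X → y ∉ X → x * y ∈ X) :
    Nat.card E ≤ 2 * Nat.card (E ⊓ X : Subgroup G) := by
  by_cases h0 : E ≤ X
  · rw [inf_eq_left.2 h0]; omega
  obtain ⟨g, hg, hgX⟩ := SetLike.not_le_iff_exists.1 h0
  have : (E : Set G) ⊆ (E ⊓ X : Subgroup G) ∪ (fun x => x * g⁻¹) '' (E ⊓ X : Subgroup G) :=
    fun x hx => (em (x ∈ X)).imp (fun e => ⟨hx, e⟩) fun e =>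
      ⟨x * g, ⟨mul_mem hx hg, h x hx g hg e hgX⟩, by simp⟩
  have h1 := (Set.ncard_le_ncard this).trans (Set.ncard_union_le _ _)
  have h2 := Set.ncard_image_le (f := fun x => x * g⁻¹) (s := ((E ⊓ X : Subgroup G) : Set G))
  change (E : Set G).ncard ≤ 2 * ((E ⊓ X : Subgroup G) : Set G).ncard
  omega

theorem _root_.H55.Two.TE.idxK (h : TE A B) {H K : Subgroup G} (hH : H ≤ A ⊔ B) {a : G}
    (ha : a ∈ A) (haB : a ∉ B) (hK : ∀ s ∈ H, ⁅s, a⁆ ∈ K) :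
    Nat.card H ≤ Nat.card (H ⊓ A : Subgroup G) * Nat.card K :=
  (H58.Har.count H K a hK).trans (Nat.mul_le_mul_right _ (card_le_of_le fun s hs =>
    ⟨hs.2, h.cent (hH hs.2) ha haB (mem_centralizer_singleton_iff.1 hs.1)⟩))

theorem _root_.H55.Two.TE.le_Z (h : TE A B) (hE : E ≤ A ⊔ B) (h2 : ∀ e ∈ E, e * e = 1) {x : G}
    (hx : x ∈ 𝐍((A ⊔ B : Subgroup G))) (hA : x ∉ 𝐍(A)) (hn : x ∈ 𝐍(E)) : E ≤ A ⊓ B := by
  obtain ⟨e1, e2⟩ := h.sw' hx hA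
  have e3 := cj_eq_of_mem_normalizer hn
  rcases h.le_or hE h2 with e | e
  · exact le_inf e (e1 ▸ e3 ▸ cj_mono x (e3.symm ▸ e))
  · exact le_inf (e2 ▸ e3 ▸ cj_mono x (e3.symm ▸ e)) e

namespace Cf

variable (h : Cf F L L' A B)
include h

theorem te : TE A B := h.n1.toTE

theorem symm : Cf F L' L B A := by
  obtain ⟨ψ, y, c, k⟩ := h.co
  exact ⟨h.n2, h.n1, ⟨_, _, _, k.symm⟩, h.m2, h.m1, h.cB, h.cA⟩

theorem cj (g : G) : Cf F (L ^ᶜ g) (L' ^ᶜ g) (A ^ᶜ g) (B ^ᶜ g) := by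
  obtain ⟨ψ, y, c, k⟩ := h.co
  refine ⟨h.n1.cj g, h.n2.cj g, ⟨_, _, _, k.cj g⟩, ?_, ?_, ?_, ?_⟩
  · rw [← cj_normalizer, ← cj_normalizer]; exact cj_mono g h.m1
  · rw [← cj_normalizer, ← cj_normalizer]; exact cj_mono g h.m2
  · rw [← cj_centralizer]; exact cj_mono g h.cA
  · rw [← cj_centralizer]; exact cj_mono g h.cB

theorem cjL {l : G} (hl : l ∈ L) : Cf F L (L' ^ᶜ l) A (B ^ᶜ l) := by
  have := h.cj l
  rwa [cj_eq_of_mem hl, cj_eq_of_mem_normalizer (h.n1.LA hl)] at this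

theorem card_Z : Nat.card (A ⊓ B : Subgroup G) = Nat.card F := by
  obtain ⟨ψ, y, c, k⟩ := h.co; exact k.card_Z

theorem card_A : Nat.card A = Nat.card F ^ 2 := by
  obtain ⟨ψ, y, c, k⟩ := h.co; exact k.card_A

theorem memJ {x : G} (hx : x ∈ 𝐍((A ⊔ B : Subgroup G))) (hA : x ∈ 𝐍(A))
    (hZ : x ∈ 𝐂((A ⊓ B : Subgroup G))) (h2 : El2 x) : x ∈ A ⊔ B := by
  obtain ⟨ψ, y, c, k⟩ := h.co
  obtain ⟨b, hb, e⟩ := h.n1.F1 k (h.m1 hA) hA (h.te.swB hx hA) hZ h2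
  simpa using mul_mem (mem_sup_right (S := A) (inv_mem hb)) (mem_sup_left (h.cA e))

theorem cm_memJ {x w : G} (hx : x ∈ 𝐍((A ⊔ B : Subgroup G))) (hw : w ∈ 𝐍((A ⊔ B : Subgroup G)))
    (h2 : El2 ⁅x, w⁆) : ⁅x, w⁆ ∈ A ⊔ B := by
  obtain ⟨ψ, y, c, k⟩ := h.co
  exact h.memJ (cm_left hx (le_normalizer hw)) (h.te.cm_NA hx hw) (k.cm_cen hx hw h2) h2

theorem trZ {z w : G} (hz : z ∈ A ⊓ B) (hw : w ∈ A ⊓ B) (z1 : z ≠ 1) (w1 : w ≠ 1) :
    ∃ t ∈ 𝐍((A ⊔ B : Subgroup G)), t * z * t⁻¹ = w := by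
  obtain ⟨t, ht, e⟩ := h.n1.tr z hz.1 w hw.1 z1 w1
  exact ⟨t, h.n1.normJ (le_normalizer ht) hz z1 (e ▸ hw), e⟩

theorem idxC (hE : E ≤ 𝐍((A ⊔ B : Subgroup G))) (h2 : ∀ e ∈ E, e * e = 1) :
    Nat.card E ≤ 2 * Nat.card (E ⊓ 𝐂((A ⊓ B : Subgroup G)) : Subgroup G) := by
  obtain ⟨ψ, y, c, k⟩ := h.co
  exact idx2 fun x hx w hw x1 w1 => k.mul_cen (hE hx) (hE hw) (h2 x hx ▸ one_mem _)
    (h2 w hw ▸ one_mem _) x1 w1 (.of_mul_self (h2 x hx)) (.of_mul_self (h2 w hw))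
    (.of_mul_self (h2 _ (mul_mem hx hw)))

theorem idxN (hE : E ≤ 𝐍((A ⊔ B : Subgroup G))) :
    Nat.card E ≤ 2 * Nat.card (E ⊓ 𝐍(A) : Subgroup G) :=
  idx2 fun _ hx _ hw => h.te.sw_mul (hE hx) (hE hw)

theorem idxJ (hE : E ≤ 𝐍((A ⊔ B : Subgroup G))) (h2 : ∀ e ∈ E, e * e = 1) :
    Nat.card (E ⊓ 𝐍(A) : Subgroup G) ≤ 2 * Nat.card (E ⊓ (A ⊔ B) : Subgroup G) :=
  (h.idxC (inf_le_left.trans hE) fun e he => h2 e he.1).trans (Nat.mul_le_mul_left _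
    (card_le_of_le fun e he => ⟨he.1.1, h.memJ (hE he.1.1) he.1.2 he.2 (.of_mul_self (h2 e he.1.1))⟩))

theorem bound (hq : 4 ≤ Nat.card F) (hE : E ≤ 𝐍((A ⊔ B : Subgroup G))) (h2 : ∀ e ∈ E, e * e = 1)
    (hn : ¬ E ≤ A ⊔ B) : Nat.card E ≤ 2 * Nat.card F := by
  obtain ⟨ψ, y, c, k⟩ := h.co
  have c1 := h.idxN hE
  have c2 := h.idxJ hE h2
  have nC : ∀ w ∈ E, w ∈ 𝐍(A) → w ∉ A ⊔ B → w ∉ 𝐂((A ⊓ B : Subgroup G)) := fun w hw hA hJ e =>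
    hJ (h.memJ (hE hw) hA e (.of_mul_self (h2 w hw)))
  by_cases e : E ≤ 𝐍(A)
  · obtain ⟨w, hw, hJ⟩ := SetLike.not_le_iff_exists.1 hn
    rw [inf_eq_left.2 e] at c2
    refine c2.trans (Nat.mul_le_mul_left _ ?_)
    have wB := h.te.swB (hE hw) (e hw)
    rcases h.te.le_or (inf_le_right (a := E)) fun e he => h2 e he.1 with e' | e'
    · exact k.card_fixA (e hw) wB (.of_mul_self (h2 w hw)) (nC w hw (e hw) hJ) e'
        fun e he => comm2 h2 hw he.1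
    · exact k.symm.card_fixA wB (e hw) (.of_mul_self (h2 w hw))
        (inf_comm A B ▸ nC w hw (e hw) hJ) e' fun e he => comm2 h2 hw he.1
  obtain ⟨x, hx, hA⟩ := SetLike.not_le_iff_exists.1 e
  have hZ := h.te.le_Z (inf_le_right (a := E)) (fun e he => h2 e he.1) (hE hx) hA
    (H69.le_normalizer_inf le_normalizer hE hx)
  by_cases e' : E ⊓ 𝐍(A) ≤ A ⊔ B
  · exact c1.trans (Nat.mul_le_mul_left _ (h.card_Z ▸ card_le_of_le
      ((le_inf inf_le_left e').trans hZ)))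
  obtain ⟨w, hw, hJ⟩ := SetLike.not_le_iff_exists.1 e'
  have c3 := k.card_fixZ (hE hw.1) (.of_mul_self (h2 w hw.1)) (nC w hw.1 hw.2 hJ) hZ
    fun e he => comm2 h2 hw.1 he.1
  have : 2 * Nat.card (E ⊓ (A ⊔ B) : Subgroup G) ≤ Nat.card F := by nlinarith
  omega

theorem big (hq : 4 ≤ Nat.card F) (hE : E ≤ 𝐍((A ⊔ B : Subgroup G))) (h2 : ∀ e ∈ E, e * e = 1)
    (hc : Nat.card F ^ 2 ≤ Nat.card E) : E = A ∨ E = B := by
  have hJ : E ≤ A ⊔ B := by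
    by_contra hn
    have := h.bound hq hE h2 hn
    nlinarith
  exact (h.te.le_or hJ h2).imp (fun e => eq_of_le_of_card_ge e (h.card_A ▸ hc))
    fun e => eq_of_le_of_card_ge e (h.symm.card_A ▸ hc)

theorem normJ (hq : 4 ≤ Nat.card F) {g : G} (hg : (A ⊔ B) ^ᶜ g ≤ 𝐍((A ⊔ B : Subgroup G))) :
    g ∈ 𝐍((A ⊔ B : Subgroup G)) := by
  have k := h.cj g
  rw [cj_sup] at hg
  refine mem_normalizer_of_cj_le (cj_sup A B g ▸ sup_le ?_ ?_)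
  · rcases h.big hq (le_sup_left.trans hg) k.te.sqA k.card_A.ge with e | e <;> rw [e]
    exacts [le_sup_left, le_sup_right]
  · rcases h.big hq (le_sup_right.trans hg) k.te.sqB k.symm.card_A.ge with e | e <;> rw [e]
    exacts [le_sup_left, le_sup_right]

theorem JS (hS : IsSylowIn 2 S 𝐍((A ⊔ B : Subgroup G))) : A ⊔ B ≤ S :=
  hS.le_of_le_normalizer h.te.pS le_normalizer hS.le

theorem sylow (hq : 4 ≤ Nat.card F) (hS : IsSylowIn 2 S 𝐍((A ⊔ B : Subgroup G))) :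
    IsSylowIn 2 S ⊤ := by
  haveI : Fact (Nat.Prime 2) := ⟨Nat.prime_two⟩
  exact isSylowIn_of_normalizer le_top (hS.mono (le_inf le_top le_normalizer) fun g hg =>
    h.normJ hq ((cj_le_of_mem_normalizer (h.JS hS) hg.2).trans hS.le))

theorem normal_le (hq : 4 ≤ Nat.card F) (hE : E ≤ 𝐍((A ⊔ B : Subgroup G)))
    (h2 : ∀ e ∈ E, e * e = 1) (hJ : A ⊔ B ≤ 𝐍(E)) {x : G} (hx : x ∈ 𝐍((A ⊔ B : Subgroup G)))
    (hA : x ∉ 𝐍(A)) (hn : x ∈ 𝐍(E)) : E ≤ A ⊓ B := by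
  obtain ⟨ψ, y, c, k⟩ := h.co
  have hZ := h.te.le_Z (inf_le_right (a := E)) (fun e he => h2 e he.1) hx hA
    (H69.le_normalizer_inf inf_le_left inf_le_right (mem_inf.2 ⟨hn, hx⟩))
  refine fun w hw => hZ ⟨hw, ?_⟩
  have m : ∀ a ∈ A, ⁅w, a⁆ ∈ A ⊓ B := fun a ha =>
    hZ ⟨cm_left hw (hJ (mem_sup_left ha)), cm_right (hE hw) (mem_sup_left ha)⟩
  by_cases e : w ∈ 𝐍(A)
  · refine h.memJ (hE hw) e (by_contra fun e' => ?_) (.of_mul_self (h2 w hw))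
    have := k.card_cmA e (h.te.swB (hE hw) e) (.of_mul_self (h2 w hw)) e' le_rfl m
    rw [inf_eq_left.2 inf_le_left, h.card_Z] at this
    nlinarith
  · obtain ⟨a, ha, haB⟩ := h.te.exA
    refine absurd ?_ haB
    have m1 : w * a * w⁻¹ ∈ B := (h.te.sw' (hE hw) e).1 ▸ cj_mem w ha
    simpa [commutatorElement_def, mul_assoc] using mul_mem (B.inv_mem (m a ha).2) m1

theorem four (h4 : Nat.card F = 4) : SectionalPRankLE 2 4 G := by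
  obtain ⟨ψ, y, c, k⟩ := h.co
  obtain ⟨S, hS⟩ := exists_isSylowIn 2 𝐍((A ⊔ B : Subgroup G))
  refine H58.Har.sr_of_sylow (h.sylow h4.ge hS) fun H K hH hK hsq => ?_
  by_cases e : S ≤ 𝐍(A)
  swap
  · obtain ⟨x, hx, hA⟩ := SetLike.not_le_iff_exists.1 e
    rw [← H4.card_mul_relIndex_of_le hK, mul_comm]
    refine Nat.mul_le_mul_right _ (H83.sr_subgroup_iff.1 (H83.Mac.macWilliams hS.isP
      fun W hW _ h2 => ?_) H K hH hK hsq)
    have n := normal_iff_le_normalizer_map.1 hW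
    rw [← card_map_subtype, ← h4, ← h.card_Z]
    refine card_le_of_le (h.normal_le h4.ge ((map_subtype_le W).trans hS.le) ?_
      ((h.JS hS).trans n) (hS.le hx) hA (n hx))
    rintro _ ⟨w, hw, rfl⟩
    exact congrArg Subtype.val ((sq w).symm.trans (h2 w hw))
  have cZ := h.card_Z
  have cA := h.card_A
  have cB := h.symm.card_A
  rw [h4] at cZ cA cB
  have el : ∀ x ∈ H, El2 x := fun x hx => .of_mem hS.isP (hH hx)
  have nC : ∀ w ∈ H, w ∉ A ⊔ B → w ∉ 𝐂((A ⊓ B : Subgroup G)) := fun w hw hJ e' =>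
    hJ (h.memJ (hS.le (hH hw)) (e (hH hw)) e' (el w hw))
  have c1 : Nat.card H ≤ 2 * Nat.card (H ⊓ (A ⊔ B) : Subgroup G) := idx2 fun x hx w hw x1 w1 =>
    h.memJ (hS.le (hH (mul_mem hx hw))) (e (hH (mul_mem hx hw))) (k.mul_cen (hS.le (hH hx))
      (hS.le (hH hw)) (k.sq_cen h4 (hS.le (hH hx)) (el x hx)) (k.sq_cen h4 (hS.le (hH hw)) (el w hw))
      (nC x hx x1) (nC w hw w1) (el x hx) (el w hw) (el _ (mul_mem hx hw))) (el _ (mul_mem hx hw))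
  have k0 : 0 < Nat.card K := Nat.card_pos
  by_cases e1 : H ⊓ (A ⊔ B) ⊓ A ≤ B
  · obtain ⟨a, ha, haB⟩ := h.te.exA
    have c2 := h.te.idxK (inf_le_right (a := H)) ha haB fun s hs => h.te.cm_memS hs.2 ha
    have c3 := card_le_of_le (le_inf inf_le_right e1)
    by_cases e2 : K = ⊥
    · have h2 : ∀ x ∈ H, x * x = 1 := fun x hx => mem_bot.1 (e2 ▸ hsq x hx)
      by_cases e3 : H ≤ A ⊔ B
      · rcases h.te.le_or e3 h2 with e4 | e4 <;> have := card_le_of_le e4 <;> omega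
      · have := h.bound h4.ge (hH.trans hS.le) h2 e3
        omega
    · have := (one_lt_card_iff_ne_bot K).2 e2
      rw [cZ] at c2
      omega
  obtain ⟨a, ha, haB⟩ := SetLike.not_le_iff_exists.1 e1
  have c2 := h.te.idxK (K := K ⊓ (A ⊓ B)) (inf_le_right (a := H)) ha.2 haB fun s hs =>
    ⟨H58.Har.comm_mem hsq hs.1 ha.1.1, h.te.cm_memS hs.2 ha.2⟩
  have c3 : Nat.card (H ⊓ (A ⊔ B) ⊓ A : Subgroup G) ≤ 16 := (card_le_of_le inf_le_right).trans cA.le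
  have c4 : Nat.card (K ⊓ (A ⊓ B) : Subgroup G) ≤ Nat.card K := card_le_of_le inf_le_left
  by_cases e3 : H ≤ A ⊔ B
  · nth_rewrite 1 [inf_eq_left.2 e3] at c2
    exact c2.trans (Nat.mul_le_mul c3 c4)
  obtain ⟨x, hx, hJ⟩ := SetLike.not_le_iff_exists.1 e3
  by_cases e4 : K ≤ A ⊓ B
  · have := k.card_fixA' (e (hH hx)) (h.te.swB (hS.le (hH hx)) (e (hH hx))) (el x hx) (nC x hx hJ)
      (inf_le_right (a := H ⊓ (A ⊔ B))) fun s hs => (e4 (H58.Har.comm_mem hsq hx hs.1.1)).2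
    rw [h4] at this
    have := Nat.mul_le_mul (show Nat.card (H ⊓ (A ⊔ B) ⊓ A : Subgroup G) ≤ 8 by nlinarith) c4
    omega
  · have := H58.Har.two_mul_le (inf_lt_left.2 e4)
    have := Nat.mul_le_mul_right (Nat.card (K ⊓ (A ⊓ B) : Subgroup G)) c3
    omega

end Cf

end H23.L3
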