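import Mathlib
import Cfsg.Agent.Base
import Cfsg.Agent.Lib.TI2.L3d

/-!
# Two natural `SL₂(q)`-blocks with a common Sylow subgroup, V: centralizers of involutions
-/

set_option autoImplicit false
set_option linter.unusedSectionVars false

namespace H23.L3

open Subgroup Cfsg H69 H45 H55.Two Gold
open H68.Push (cm mem_cm le_normalizer_cm)
open scoped commutatorElement

variable {G : Type*} [Group G] [Finite G] {F : Type*} [Field F] [Finite F]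
  {L L' A B C : Subgroup G} {ψ y c : G → F}

theorem chain (hC : H70.CharP 2 C) {R1 R2 : Subgroup G} (l1 : R1 ≤ pCoreOf 2 C)
    (l2 : R2 ≤ pCoreOf 2 C) (n1 : C ≤ 𝐍(R1)) (n2 : C ≤ 𝐍(R2)) {x : G} (hx : x ∈ C)
    (h0 : ∀ r ∈ pCoreOf 2 C, ⁅r, x⁆ ∈ R1) (h1 : ∀ r ∈ R1, ⁅r, x⁆ ∈ R2) (h2 : ∀ r ∈ R2, r * x = x * r) :
    x ∈ pCoreOf 2 C := by
  haveI : Fact (Nat.Prime 2) := ⟨Nat.prime_two⟩
  have pR := H70.isPGroup_pCoreOf 2 C
  refine H70.le_pCoreOf (P := C ⊓ (cm R1 (pCoreOf 2 C) ⊓ (cm R2 R1 ⊓ 𝐂(R2))))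
    (H70.isPGroup_of_forall_coprime fun w hw ho => hC.eq_one hw.1 ho ?_) inf_le_left
    (H69.le_normalizer_inf le_normalizer (H69.le_normalizer_inf
      (le_normalizer_cm n1 (H70.le_normalizer_pCoreOf 2 C)) (H69.le_normalizer_inf
        (le_normalizer_cm n2 n1) (H69.le_normalizer_centralizer n2))))
    ⟨hx, mem_cm.2 ⟨n1 hx, h0⟩, mem_cm.2 ⟨n2 hx, h1⟩, h2⟩
  exact H70.le_centralizer_of_commutator_mem (pR.to_le l1) ho
    (H70.le_centralizer_of_commutator_mem (pR.to_le l2) ho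
      (H70.le_centralizer_singleton_iff.2 hw.2.2.2) (mem_cm.1 hw.2.2.1).2) (mem_cm.1 hw.2.1).2

theorem Co.quad (h : Co F A B ψ y c) {x d e z : G} (hx : x ∈ A ⊔ B) (hd : d ∈ A ⊔ B)
    (he : e ∈ A ⊔ B) (hz : z ∈ A ⊓ B) (h1 : x * d * (x * d) = x * x) (h2 : x * e * (x * e) = x * x)
    (h3 : x * (d * (z * e)) * (x * (d * (z * e))) = x * x) (d1 : d * d ≠ 1) (e1 : e * e ≠ 1) :
    d * (z * e) * (d * (z * e)) = 1 := by
  obtain ⟨a, ha, ea⟩ := h.y_surj 1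
  obtain ⟨b, hb, eb⟩ := h.c_surj 1
  have add : ∀ w ∈ A ⊔ B, ∀ s ∈ A ⊔ B, ∀ t ∈ A ⊔ B, ψ ⁅s * t, w⁆ = ψ ⁅s, w⁆ + ψ ⁅t, w⁆ :=
    fun w hw s hs t ht => by
      rw [cm_mul_left (h.cen (h.cm_memSS ht hw) hs), h.ψ_mul _ (h.cm_memSS ht hw) _
        (h.cm_memSS hs hw), add_comm]
  have hsq : ∀ s ∈ A ⊔ B, ψ (s * s) = ψ ⁅s, b⁆ * ψ ⁅s, a⁆ := fun s hs => by
    obtain ⟨a', ha', b', hb', rfl⟩ := h.dec hs
    rw [h.sq_eq ha' hb', add b (mem_sup_right hb) _ (mem_sup_left ha') _ (mem_sup_right hb'),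
      add a (mem_sup_left ha) _ (mem_sup_left ha') _ (mem_sup_right hb'), h.cm_one_l hb' hb,
      h.cm_one_r ha' ha, h.cm_symm ha hb', h.cm _ ha' _ hb', h.cm _ ha' _ hb, h.cm _ ha _ hb',
      h.ψ_one, ea, eb]
    ring
  have zJ : z ∈ A ⊔ B := mem_sup_left hz.1
  have m := mul_mem hd (mul_mem zJ he)
  have k : ∀ w ∈ A ⊔ B, ψ ⁅d * (z * e), w⁆ = ψ ⁅d, w⁆ + ψ ⁅e, w⁆ := fun w hw => by
    rw [add w hw d hd _ (mul_mem zJ he), add w hw z zJ e he, cm_eq_one.2 (h.cen hz hw).symm,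
      h.ψ_one, zero_add]
  have aJ : a ∈ A ⊔ B := mem_sup_left ha
  have bJ : b ∈ A ⊔ B := mem_sup_right hb
  have f1 := congrArg ψ h1
  have f2 := congrArg ψ h2
  have f3 := congrArg ψ h3
  rw [hsq _ (mul_mem hx hd), hsq x hx, add a aJ x hx d hd, add b bJ x hx d hd] at f1
  rw [hsq _ (mul_mem hx he), hsq x hx, add a aJ x hx e he, add b bJ x hx e he] at f2
  rw [hsq _ (mul_mem hx m), hsq x hx, add a aJ x hx _ m, add b bJ x hx _ m, k a aJ, k b bJ] at f3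
  have g1 := mt (h.ψ_ker _ (h.sq_mem hd)) d1
  have g2 := mt (h.ψ_ker _ (h.sq_mem he)) e1
  rw [hsq d hd] at g1
  rw [hsq e he] at g2
  refine h.ψ_ker _ (h.sq_mem m) ?_
  rw [hsq _ m, k a aJ, k b bJ]
  refine mul_eq_zero_of_right _ (mul_left_cancel₀ (mul_ne_zero (left_ne_zero_of_mul g1)
    (left_ne_zero_of_mul g2)) ?_)
  have t := h.two
  generalize ψ ⁅x, a⁆ = v at *
  generalize ψ ⁅x, b⁆ = u at *
  generalize ψ ⁅d, a⁆ = v1 at *
  generalize ψ ⁅d, b⁆ = u1 at *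
  generalize ψ ⁅e, a⁆ = v2 at *
  generalize ψ ⁅e, b⁆ = u2 at *
  linear_combination u2 * f1 + u1 * f2 - u * (f3 - f1 - f2) - u1 * u2 * v * t

theorem _root_.H55.Two.TE.of_sq (h : TE A B) {x a : G} (hx : x ∈ 𝐍((A ⊔ B : Subgroup G)))
    (hA : x ∉ 𝐍(A)) (hZ : x ∈ 𝐂((A ⊓ B : Subgroup G))) (ha : a ∈ A)
    (e : ⁅x, a⁆ * ⁅x, a⁆ = 1) : a ∈ B := by
  have m : x * a * x⁻¹ ∈ B := (h.sw' hx hA).1 ▸ cj_mem x ha
  rcases h.mem_or (cm_right hx (mem_sup_left ha)) e with k | k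
  · have k1 : x * a * x⁻¹ ∈ A := by simpa [commutatorElement_def] using mul_mem k ha
    have := hZ _ ⟨k1, m⟩
    rw [inv_mul_cancel_right, mul_right_inj] at this
    rwa [this]
  · simpa [commutatorElement_def, mul_assoc] using mul_mem (inv_mem k) m

namespace Cf

variable (h : Cf F L L' A B)
include h

theorem memJ_of_cm {w : G} (hw : w ∈ 𝐍((A ⊔ B : Subgroup G))) (h2 : El2 w)
    (m : ∀ a ∈ A, ⁅w, a⁆ ∈ A ⊓ B) : w ∈ A ⊔ B := by
  obtain ⟨ψ, y, c, k⟩ := h.co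
  by_cases e : w ∈ 𝐍(A)
  · refine h.memJ hw e (by_contra fun e' => ?_) h2
    have := k.card_cmA e (h.te.swB hw e) h2 e' le_rfl m
    rw [inf_eq_left.2 inf_le_left, h.card_Z] at this
    have := Finite.one_lt_card (α := F)
    nlinarith
  · obtain ⟨a, ha, haB⟩ := h.te.exA
    have m1 : w * a * w⁻¹ ∈ B := (h.te.sw' hw e).1 ▸ cj_mem w ha
    refine absurd ?_ haB
    simpa [commutatorElement_def, mul_assoc] using mul_mem (B.inv_mem (m a ha).2) m1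

variable (hq : 5 ≤ Nat.card F) (hC : H70.CharP 2 C) (JC : A ⊔ B ≤ C)
  (RN : pCoreOf 2 C ≤ 𝐍((A ⊔ B : Subgroup G)))
include hC JC RN

theorem Z_le : A ⊓ B ≤ pCoreOf 2 C := by
  obtain ⟨ψ, y, c, k⟩ := h.co
  have nR := JC.trans (H70.le_normalizer_pCoreOf 2 C)
  by_cases e : pCoreOf 2 C ⊓ (A ⊔ B) ≤ A ⊓ B
  · have e1 : pCoreOf 2 C ≤ A ⊓ B := fun r hr => e ⟨hr, h.memJ_of_cm (RN hr)
      (.of_mem (H70.isPGroup_pCoreOf 2 C) hr) fun a ha =>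
        e ⟨cm_left hr (nR (mem_sup_left ha)), cm_right (RN hr) (mem_sup_left ha)⟩⟩
    exact (inf_le_left.trans le_sup_left).trans
      ((le_inf JC (h.te.le_centZ.trans (centralizer_anti e1))).trans hC)
  obtain ⟨r, hr, hZ⟩ := SetLike.not_le_iff_exists.1 e
  obtain ⟨a, ha, b, hb, rfl⟩ := k.dec hr.2
  intro z hz
  by_cases e1 : a ∈ B
  · obtain ⟨a', ha', rfl⟩ := k.symm.surj hb (fun e2 => hZ ⟨mul_mem ha e2, mul_mem e1 hb⟩) hz.symm
    have := cm_left hr.1 (nR (mem_sup_left ha'))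
    rwa [cm_mul_left (k.cen hz (mem_sup_left ha)), k.cm_one_r ha ha', mul_one] at this
  · obtain ⟨b', hb', rfl⟩ := k.surj ha e1 hz
    have := cm_left hr.1 (nR (mem_sup_right hb'))
    rwa [cm_mul_left (by rw [k.cm_one_l hb hb']; simp), k.cm_one_l hb hb', one_mul] at this

include hq

theorem J_le (hn : C ≤ 𝐍((A ⊓ B : Subgroup G))) : A ⊔ B ≤ pCoreOf 2 C := by
  obtain ⟨ψ, y, c, k⟩ := h.co
  have nR := H70.le_normalizer_pCoreOf 2 C
  have pR := H70.isPGroup_pCoreOf 2 C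
  have key : ∀ g ∈ C, pCoreOf 2 C ⊓ (A ⊔ B) ^ᶜ g ≤ A ⊔ B := fun g hg x hx => by
    have h' := h.cj g
    have eZ : A ^ᶜ g ⊓ B ^ᶜ g = A ⊓ B := by rw [← cj_inf, cj_eq_of_mem_normalizer (hn hg)]
    have RN' : pCoreOf 2 C ≤ 𝐍((A ^ᶜ g ⊔ B ^ᶜ g : Subgroup G)) := by
      rw [← cj_sup, ← cj_normalizer, ← cj_eq_of_mem_normalizer (nR hg)]; exact cj_mono g RN
    have xJ : x ∈ A ^ᶜ g ⊔ B ^ᶜ g := cj_sup A B g ▸ hx.2
    have xZ : x ∈ 𝐂((A ⊓ B : Subgroup G)) := eZ ▸ h'.te.le_centZ xJ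
    refine h.memJ (RN hx.1) (by_contra fun xA => ?_) xZ (.of_mem pR hx.1)
    have x2 : x * x ∈ A ⊓ B := eZ ▸ h'.te.sq_mem xJ
    have dJ : ∀ a ∈ A, ⁅x⁻¹, a⁆ ∈ A ⊔ B := fun a ha => cm_right (inv_mem (RN hx.1)) (mem_sup_left ha)
    have dR : ∀ a ∈ A, ⁅x⁻¹, a⁆ ∈ pCoreOf 2 C := fun a ha =>
      cm_left (inv_mem hx.1) (nR (JC (mem_sup_left ha)))
    have dm : ∀ a a' : G, ⁅x⁻¹, a * a'⁆ = ⁅x⁻¹, a⁆ * (⁅a, ⁅x⁻¹, a'⁆⁆ * ⁅x⁻¹, a'⁆) := fun a a' => by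
      simp only [commutatorElement_def]; group
    have zm : ∀ a ∈ A, ∀ a' ∈ A, ⁅a, ⁅x⁻¹, a'⁆⁆ ∈ A ^ᶜ g ⊓ B ^ᶜ g := fun a ha a' ha' =>
      eZ.symm ▸ k.cm_memSS (mem_sup_left ha) (dJ a' ha')
    have ZJ : A ^ᶜ g ⊓ B ^ᶜ g ≤ A ^ᶜ g ⊔ B ^ᶜ g := inf_le_left.trans le_sup_left
    let P : Subgroup G :=
      { carrier := {a | a ∈ A ∧ ⁅x⁻¹, a⁆ ∈ A ^ᶜ g ⊔ B ^ᶜ g}
        mul_mem' := fun {a a'} ha ha' => ⟨mul_mem ha.1 ha'.1, by
          rw [dm]; exact mul_mem ha.2 (mul_mem (ZJ (zm a ha.1 a' ha'.1)) ha'.2)⟩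
        one_mem' := ⟨one_mem _, by simp⟩
        inv_mem' := fun {a} ha => by rwa [k.inv ha.1] }
    have sw : ∀ a ∈ A, a ∉ P → ⁅x⁻¹, a⁆ ∉ 𝐍(A ^ᶜ g) := fun a ha e e' => e ⟨ha,
      h'.memJ (RN' (dR a ha)) e' (eZ.symm ▸ k.le_centZ (dJ a ha)) (.of_mem pR (dR a ha))⟩
    have c1 : Nat.card A ≤ 2 * Nat.card (A ⊓ P : Subgroup G) := idx2 fun a ha a' ha' e e' => by
      have m := dR _ (mul_mem ha ha')
      refine ⟨mul_mem ha ha', h'.memJ (RN' m) ?_ (eZ.symm ▸ k.le_centZ (dJ _ (mul_mem ha ha')))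
        (.of_mem pR m)⟩
      rw [dm]
      have m1 := h'.te.normA (ZJ (zm a ha a' ha'))
      exact h'.te.sw_mul (RN' (dR a ha)) (mul_mem (le_normalizer (ZJ (zm a ha a' ha')))
        (RN' (dR a' ha'))) (sw a ha e) fun e'' => sw a' ha' e' ((mul_mem_cancel_left m1).1 e'')
    have c2 : Nat.card (A ⊓ P : Subgroup G) ≤ 2 * Nat.card (A ⊓ P ⊓ B : Subgroup G) :=
      idx2 fun a ha a' ha' e e' => by
        obtain ⟨ψ', y', c', k'⟩ := h'.co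
        have s : ∀ a ∈ A, x * ⁅x⁻¹, a⁆ * (x * ⁅x⁻¹, a⁆) = x * x := fun a ha => by
          calc _ = a * (x * x) * a⁻¹ := by rw [commutatorElement_def]; group
            _ = _ := by rw [k.cen x2 (mem_sup_left ha), mul_inv_cancel_right]
        have o := fun a ha => k.of_sq (a := a) (inv_mem (RN hx.1)) (mt inv_mem_iff.1 xA)
          (inv_mem xZ) ha
        refine o _ (mul_mem ha.1 ha'.1) ?_
        rw [dm]
        exact k'.quad xJ ha.2.2 ha'.2.2 (zm a ha.1 a' ha'.1) (s a ha.1) (s a' ha'.1)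
          (dm a a' ▸ s _ (mul_mem ha.1 ha'.1)) (mt (o a ha.1) e) (mt (o a' ha'.1) e')
    have c3 := card_le_of_le (inf_le_inf_right B (inf_le_left : A ⊓ P ≤ A))
    rw [h.card_A] at c1
    rw [h.card_Z] at c3
    nlinarith
  exact fun x hx => chain hC (R1 := pCoreOf 2 C ⊓ (A ⊔ B)) inf_le_left (h.Z_le hC JC RN)
    (le_normalizer_of_cj_le fun g hg => le_inf ((cj_mono g inf_le_left).trans
      (cj_eq_of_mem_normalizer (nR hg)).le) fun s hs => key g hg ⟨(cj_eq_of_mem_normalizer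
        (nR hg)).le (cj_mono g inf_le_left hs), cj_mono g inf_le_right hs⟩) hn (JC hx)
    (fun r hr => ⟨cm_left hr (nR (JC hx)), cm_right (RN hr) hx⟩)
    (fun r hr => k.cm_memSS hr.2 hx) fun r hr => (k.cen hr hx).symm

omit hq in
theorem of_normP (hn : C ≤ 𝐍((pCoreOf 2 C ⊓ A : Subgroup G))) :
    C ≤ 𝐍(A) ∨ C ≤ 𝐍((A ⊓ B : Subgroup G)) := by
  have nR := H70.le_normalizer_pCoreOf 2 C
  by_cases e : pCoreOf 2 C ⊓ A ≤ B
  · right
    rwa [← le_antisymm (le_inf inf_le_right e) (le_inf (h.Z_le hC JC RN) inf_le_left)]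
  left
  rwa [← (inf_eq_right (a := pCoreOf 2 C) (b := A)).2 fun x hx => chain hC inf_le_left inf_le_left hn hn (JC (mem_sup_left hx))
    (fun r hr => ⟨cm_left hr (nR (JC (mem_sup_left hx))), cm_right (by_contra fun e' => e (by
      rw [← cj_eq_of_mem_normalizer (hn (H70.pCoreOf_le 2 C hr)), ← (h.te.sw' (RN hr) e').1]
      exact cj_mono r inf_le_right)) hx⟩)
    (fun r hr => by rw [h.te.cm_one_r hr.2 hx]; exact one_mem _) fun r hr => h.te.comm hr.2 hx]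

omit hq in
theorem of_swap (hN : pCoreOf 2 C ⊓ 𝐍(A) ≤ A ⊔ B) {x : G} (hx : x ∈ pCoreOf 2 C) (hA : x ∉ 𝐍(A))
    (hZ : x ∈ 𝐂((A ⊓ B : Subgroup G))) : C ≤ 𝐍((A ⊓ B : Subgroup G)) := by
  have nR := H70.le_normalizer_pCoreOf 2 C
  have RZ : pCoreOf 2 C ≤ 𝐂((A ⊓ B : Subgroup G)) := fun r hr => by
    by_cases e : r ∈ 𝐍(A)
    · exact h.te.le_centZ (hN ⟨hr, e⟩)
    · exact (mul_mem_cancel_right hZ).1
        (h.te.le_centZ (hN ⟨mul_mem hr hx, h.te.sw_mul (RN hr) (RN hx) e hA⟩))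
  refine le_normalizer_of_cj_le fun g hg t ht => ?_
  have tR : t ∈ pCoreOf 2 C := cj_le_of_mem_normalizer (h.Z_le hC JC RN) (nR hg) ht
  have tC : t ∈ 𝐂(pCoreOf 2 C) := cj_le_of_mem_normalizer (le_centralizer_iff.1 RZ)
    (normalizer_le_normalizer_centralizer _ (nR hg)) ht
  have t2 : t * t = 1 := (h.cj g).te.sqA t (cj_mono g inf_le_left ht)
  by_cases e : t ∈ 𝐍(A)
  · have e1 : x * t * x⁻¹ = t := conj_fix.2 (tC x hx)
    obtain ⟨e2, e3⟩ := h.te.sw' (RN hx) hA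
    rcases h.te.mem_or (hN ⟨tR, e⟩) t2 with k | k
    · exact ⟨k, e1 ▸ e2 ▸ cj_mem x k⟩
    · exact ⟨e1 ▸ e3 ▸ cj_mem x k, k⟩
  · obtain ⟨a, ha, haB⟩ := h.te.exA
    refine absurd (h.te.of_sq (RN tR) e (RZ tR) ha ?_) haB
    have := tC _ (cm_left tR (nR (JC (mem_sup_left ha))))
    rw [commutatorElement_def, inv_of_sq t2, h.te.inv ha] at this ⊢
    calc t * a * t * a * (t * a * t * a) = t * a * t * a * t * (a * t * a) := by group
      _ = t * t * a * t * (a * a) * t * a := by rw [this]; group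
      _ = 1 := by simp [t2, h.te.sqA a ha, mul_assoc, ← mul_assoc t t]

theorem tri : C ≤ 𝐍(A) ∨ C ≤ 𝐍(B) ∨ C ≤ 𝐍((A ⊓ B : Subgroup G)) := by
  obtain ⟨ψ, y, c, k⟩ := h.co
  have nR := H70.le_normalizer_pCoreOf 2 C
  have ZR := h.Z_le hC JC RN
  obtain ⟨E, ⟨hE, h2⟩, hm⟩ := Set.exists_max_image
    {E : Subgroup G | E ≤ pCoreOf 2 C ∧ ∀ e ∈ E, e * e = 1} (fun E => Nat.card E) (Set.toFinite _)
    ⟨⊥, bot_le, by simp⟩
  by_cases e : ∃ E' ≤ pCoreOf 2 C, (∀ e ∈ E', e * e = 1) ∧ Nat.card E' = Nat.card E ∧ ¬ E' ≤ A ⊔ B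
  · obtain ⟨E, hE, h2, hc, hJ⟩ := e
    rw [← hc] at hm
    have c1 := h.bound (by omega) (hE.trans RN) h2 hJ
    have hN : pCoreOf 2 C ⊓ 𝐍(A) ≤ A ⊔ B := fun r hr => by
      have r2 := El2.of_mem (H70.isPGroup_pCoreOf 2 C) hr.1
      refine h.memJ (RN hr.1) hr.2 (by_contra fun e => ?_) r2
      have c2 := k.card_cmA hr.2 (k.swB (RN hr.1) hr.2) r2 e ZR fun a ha =>
        cm_left hr.1 (nR (JC (mem_sup_left ha)))
      have c3 := Nat.pow_le_pow_left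
        ((hm _ ⟨inf_le_left, fun a ha => k.sqA a ha.2⟩).trans c1) 2
      nlinarith [c2.trans c3, Nat.pos_of_ne_zero (show Nat.card F ^ 2 ≠ 0 by positivity)]
    obtain ⟨x, hx, xJ⟩ := SetLike.not_le_iff_exists.1 hJ
    have xA : x ∉ 𝐍(A) := fun e => xJ (hN ⟨hE hx, e⟩)
    refine Or.inr (Or.inr (h.of_swap hC JC RN hN (hE hx) xA (by_contra fun e => ?_)))
    have hZ : E ⊓ 𝐍(A) ≤ A ⊓ B := (le_inf inf_le_left ((inf_le_inf_right _ hE).trans hN)).trans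
      (k.le_Z (inf_le_right (a := E)) (fun e he => h2 e he.1) (RN (hE hx)) xA
        (H69.le_normalizer_inf le_normalizer (hE.trans RN) hx))
    have c2 := k.card_fixZ (RN (hE hx)) (.of_mul_self (h2 x hx)) e hZ fun e he => comm2 h2 hx he.1
    have c3 := (hm _ ⟨ZR, fun a ha => k.sqA a ha.1⟩).trans (h.idxN (hE.trans RN))
    rw [h.card_Z] at c3
    nlinarith
  have al : ∀ E' ≤ pCoreOf 2 C, (∀ e ∈ E', e * e = 1) → Nat.card E' = Nat.card E →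
      E' = pCoreOf 2 C ⊓ A ∨ E' = pCoreOf 2 C ⊓ B := fun E' h1 h3 h4 =>
    (k.le_or (by_contra fun h5 => e ⟨E', h1, h3, h4, h5⟩) h3).imp
      (fun h5 => eq_of_le_of_card_ge (le_inf h1 h5)
        (h4 ▸ hm _ ⟨inf_le_left, fun a ha => k.sqA a ha.2⟩))
      fun h5 => eq_of_le_of_card_ge (le_inf h1 h5)
        (h4 ▸ hm _ ⟨inf_le_left, fun a ha => k.sqB a ha.2⟩)
  have cjR : ∀ g ∈ C, ∀ X, (pCoreOf 2 C ⊓ X) ^ᶜ g ≤ pCoreOf 2 C := fun g hg X =>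
    cj_le_of_mem_normalizer inf_le_left (nR hg)
  have aA : Nat.card (pCoreOf 2 C ⊓ A : Subgroup G) = Nat.card E → ∀ g ∈ C,
      (pCoreOf 2 C ⊓ A) ^ᶜ g = pCoreOf 2 C ⊓ A ∨ (pCoreOf 2 C ⊓ A) ^ᶜ g = pCoreOf 2 C ⊓ B :=
    fun e g hg => al _ (cjR g hg A) (fun a ha => (k.toTE.cj g).sqA a (cj_mono g inf_le_right ha))
      (by rw [card_cj, e])
  have aB : Nat.card (pCoreOf 2 C ⊓ B : Subgroup G) = Nat.card E → ∀ g ∈ C,
      (pCoreOf 2 C ⊓ B) ^ᶜ g = pCoreOf 2 C ⊓ A ∨ (pCoreOf 2 C ⊓ B) ^ᶜ g = pCoreOf 2 C ⊓ B :=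
    fun e g hg => al _ (cjR g hg B) (fun a ha => (k.toTE.cj g).sqB a (cj_mono g inf_le_right ha))
      (by rw [card_cj, e])
  by_cases eA : Nat.card (pCoreOf 2 C ⊓ A : Subgroup G) = Nat.card E
  · by_cases eB : Nat.card (pCoreOf 2 C ⊓ B : Subgroup G) = Nat.card E
    · refine Or.inr (Or.inr (le_normalizer_of_cj_le fun g hg => ?_))
      have l1 := cj_mono g (le_inf ZR (inf_le_left : A ⊓ B ≤ A))
      have l2 := cj_mono g (le_inf ZR (inf_le_right : A ⊓ B ≤ B))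
      rcases aA eA g hg with e1 | e1 <;> rcases aB eB g hg with e2 | e2
      · exact le_inf (l1.trans (e1.le.trans inf_le_right))
          (l1.trans ((e1.trans (cj_inj.1 (e1.trans e2.symm))).le.trans inf_le_right))
      · exact le_inf (l1.trans (e1.le.trans inf_le_right)) (l2.trans (e2.le.trans inf_le_right))
      · exact le_inf (l2.trans (e2.le.trans inf_le_right)) (l1.trans (e1.le.trans inf_le_right))
      · exact le_inf (l1.trans ((e1.trans (cj_inj.1 (e1.trans e2.symm)).symm).le.trans inf_le_right))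
          (l1.trans (e1.le.trans inf_le_right))
    · exact (h.of_normP hC JC RN fun g hg => cj_eq_self_iff.1 ((aA eA g hg).resolve_right
        fun e => eB (by rw [← e, card_cj, eA]))).imp_right Or.inr
  · have eB := (al E hE h2 rfl).resolve_left fun e => eA (by rw [← e])
    exact Or.inr ((h.symm.of_normP hC (sup_comm A B ▸ JC) (sup_comm A B ▸ RN) fun g hg =>
      cj_eq_self_iff.1 ((aB (by rw [← eB]) g hg).resolve_left fun e => eA (by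
        rw [← e, card_cj, ← eB]))).imp_right fun e => inf_comm A B ▸ e)

omit hC JC RN in
theorem cen (hG : IsCharacteristicTwoType G) {z : G} (hz : z ∈ A ⊓ B) (z1 : z ≠ 1) :
    𝐂[z] ≤ 𝐍((A ⊔ B : Subgroup G)) := by
  haveI : Fact (Nat.Prime 2) := ⟨Nat.prime_two⟩
  obtain ⟨S, hS⟩ := exists_isSylowIn 2 𝐍((A ⊔ B : Subgroup G))
  obtain ⟨⟨w, hw, hc⟩, w1⟩ := ne_bot_iff_exists_ne_one.1 (inf_centralizer_ne_bot
    (h.te.pA.to_le inf_le_left) hS.isP (hS.le.trans h.te.normS_Z) h.te.Z_ne)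
  replace w1 : w ≠ 1 := fun e => w1 (Subtype.ext e)
  obtain ⟨t, ht, rfl⟩ := h.trZ hw hz w1 z1
  rw [← cj_centralizer_singleton]
  refine cj_le_of_mem_normalizer ?_ (le_normalizer ht)
  have w2 := h.te.sqA w hw.1
  have hC := (charP hG (El2.of_mul_self w2).isPGroup (mt zpowers_eq_bot.1 w1)).inf_centralizer_singleton
    (k := 1) (by rw [pow_one, sq, w2]) (le_normalizer (mem_zpowers w))
  rw [inf_eq_right.2 (H69.centralizer_zpowers w ▸ centralizer_le_normalizer _)] at hC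
  have SC : S ≤ 𝐂[w] := fun s hs => mem_centralizer_singleton_iff.2 (hc s hs)
  have JC := (h.JS hS).trans SC
  have RN := ((h.sylow (by omega) hS).mono SC le_top).pCoreOf_le.trans hS.le
  have fix : ∀ g ∈ 𝐂[w], g * w * g⁻¹ ∈ A ⊓ B := fun g hg => by
    rwa [conj_fix.2 (mem_centralizer_singleton_iff.1 hg)]
  intro g hg
  rcases h.tri hq hC JC RN with e | e | e
  · exact h.n1.normJ (h.m1 (e hg)) hw w1 (fix g hg)
  · exact sup_comm A B ▸ h.n2.normJ (h.m2 (e hg)) hw.symm w1 (fix g hg).symm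
  · exact h.normJ (by omega) ((cj_le_of_mem_normalizer (h.J_le hq hC JC RN e)
      (H70.le_normalizer_pCoreOf 2 _ hg)).trans RN)

end Cf

end H23.L3
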